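import Cfsg.Agent.RV.Lin

/-! A configuration of matrices that cannot occur in a `13'`-subgroup of `GL₃(13)`. -/

set_option autoImplicit false

namespace Cfsg.Agent.RV

open Matrix

namespace Ab

abbrev M3 := Matrix (Fin 3) (Fin 3) (ZMod 13)

/-- A set of matrices of order prime to 13 closed under products. -/
structure D3 (W : M3 → Prop) : Prop where
  mul : ∀ {A B}, W A → W B → W (A * B)
  pp : ∀ {A}, W A → ∃ m, ¬ 13 ∣ m ∧ A ^ m = 1

/-- Block matrices. -/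
def bk (l : ZMod 13) (M : M2 13) : M3 := !![l, 0, 0; 0, M 0 0, M 0 1; 0, M 1 0, M 1 1]

theorem bk_mul (l m : ZMod 13) (M N : M2 13) : bk l M * bk m N = bk (l * m) (M * N) := by
  simp [bk, mul_apply]

theorem bk_inj {l m : ZMod 13} {M N : M2 13} (h : bk l M = bk m N) : l = m ∧ M = N := by
  refine ⟨congrFun (congrFun h 0) 0, ?_⟩
  ext i j
  fin_cases i <;> fin_cases j
  exacts [congrFun (congrFun h 1) 1, congrFun (congrFun h 1) 2, congrFun (congrFun h 2) 1, congrFun (congrFun h 2) 2]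

theorem bk_one : bk 1 1 = 1 := by decide

theorem exists_bk {A : M3} (h : A * bk 1 (-1) = bk 1 (-1) * A) : ∃ l M, A = bk l M := by
  have k : ∀ x : ZMod 13, (-x = x → x = 0) ∧ (x = -x → x = 0) := by decide
  have e := fun i j => congrFun (congrFun h i) j
  refine ⟨A 0 0, !![A 1 1, A 1 2; A 2 1, A 2 2], ?_⟩
  rw [eta_fin_three A, (k _).1 (show -A 0 1 = _ by simpa [bk, mul_apply, Fin.sum_univ_three] using e 0 1),
    (k _).1 (show -A 0 2 = _ by simpa [bk, mul_apply, Fin.sum_univ_three] using e 0 2),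
    (k _).2 (show _ = -A 1 0 by simpa [bk, mul_apply, Fin.sum_univ_three] using e 1 0),
    (k _).2 (show _ = -A 2 0 by simpa [bk, mul_apply, Fin.sum_univ_three] using e 2 0)]
  rfl

/-- Monomial matrices. -/
def Mo (M : M2 13) : Prop := M 0 1 = 0 ∧ M 1 0 = 0 ∨ M 0 0 = 0 ∧ M 1 1 = 0

theorem not_mo {I J R : M2 13} (ii : I * I = -1) (jj : J * J = -1) (ij : I * J * (I * J) = -1)
    (hd : R 0 0 * R 1 1 - R 0 1 * R 1 0 ≠ 0) (ri : R * I = J * R ∨ R * I = J * -1 * R)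
    (rj : R * J = I * J * R ∨ R * J = I * J * -1 * R) (hI : Mo I) (hJ : Mo J) (hR : Mo R) : False := by
  have i1 := congrFun (congrFun ii 0) 0
  have i2 := congrFun (congrFun ii 1) 1
  have j1 := congrFun (congrFun jj 0) 0
  have k1 := congrFun (congrFun ij 0) 0
  have r1 := ri.imp (fun e => congrFun (congrFun e 0) 0) fun e => congrFun (congrFun e 0) 0
  have r2 := ri.imp (fun e => congrFun (congrFun e 0) 1) fun e => congrFun (congrFun e 0) 1
  have r3 := rj.imp (fun e => congrFun (congrFun e 0) 0) fun e => congrFun (congrFun e 0) 0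
  have r4 := rj.imp (fun e => congrFun (congrFun e 0) 1) fun e => congrFun (congrFun e 0) 1
  have h2 : (2 : ZMod 13) ≠ 0 := by decide
  rcases hI with ⟨a1, a2⟩ | ⟨a1, a2⟩ <;> rcases hJ with ⟨b1, b2⟩ | ⟨b1, b2⟩ <;>
    rcases hR with ⟨c1, c2⟩ | ⟨c1, c2⟩ <;>
      simp [mul_apply, a1, a2, b1, b2, c1, c2] at i1 i2 j1 k1 r1 r2 r3 r4 hd <;> grind

variable {W : M3 → Prop} (h : D3 W)
include h

theorem D3.inv {A : M3} (hA : W A) : ∃ A', W A' ∧ A' * A = 1 ∧ A * A' = 1 := by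
  obtain ⟨m, h1, h2⟩ := h.pp hA
  obtain ⟨n, rfl⟩ := Nat.exists_eq_succ_of_ne_zero (show m ≠ 0 by rintro rfl; simp at h1)
  have k : ∀ n, W (A ^ (n + 1)) := fun n => by
    induction n with
    | zero => simpa using hA
    | succ n ih => exact pow_succ A _ ▸ h.mul ih hA
  have e : A ^ (n + n + 1) * A = 1 := by rw [← pow_succ, show n + n + 1 + 1 = n.succ * 2 by omega, pow_mul, h2, one_pow]
  exact ⟨_, k _, e, mul_eq_one_comm.1 e⟩

theorem D3.chg {B B' : M3} (hB : B * B' = 1) : D3 fun A => W (B * A * B') := by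
  have hB' := mul_eq_one_comm.1 hB
  have e : ∀ A C : M3, B * (A * C) * B' = B * A * B' * (B * C * B') := fun A C => by
    simp only [mul_assoc]; rw [← mul_assoc B' B, hB', one_mul]
  refine ⟨fun {A C} a b => (congrArg W (e A C)).mpr (h.mul a b), fun {A} a => (h.pp a).imp fun m => And.imp_right fun h2 => ?_⟩
  have : ∀ n, (B * A * B') ^ n = B * A ^ n * B' := fun n => by
    induction n with
    | zero => simp [hB]
    | succ n ih => rw [pow_succ, ih, pow_succ, e]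
  calc A ^ m = B' * (B * A ^ m * B') * B := by
        simp only [mul_assoc, hB', mul_one]; rw [← mul_assoc, hB', one_mul]
    _ = 1 := by rw [← this, h2, mul_one, hB']

theorem D3.dat {A : M3} (hA : W A) : Dat (fun M => ∃ l, W (bk l M)) fun _ => False := by
  obtain ⟨A', h1, h2, -⟩ := h.inv hA
  refine ⟨⟨1, by rw [bk_one, ← h2]; exact h.mul h1 hA⟩, fun ⟨_, a⟩ ⟨_, b⟩ => ⟨_, bk_mul _ _ _ _ ▸ h.mul a b⟩,
    fun {M} ⟨l, a⟩ => (h.pp a).imp fun m => And.imp_right fun e => ?_, fun _ => id, fun _ => id, False.elim⟩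
  have : ∀ n, bk l M ^ n = bk (l ^ n) (M ^ n) := fun n => by
    induction n with
    | zero => simp [bk_one]
    | succ n ih => rw [pow_succ, ih, bk_mul, ← pow_succ, ← pow_succ]
  exact (bk_inj ((this m).symm.trans (e.trans bk_one.symm))).2

theorem D3.step (hy : W (bk 5 !![-1, 0; 0, 5])) {l : ZMod 13} {B : M2 13} (hB : W (bk l B)) :
    Mo B ∨ ∃ b c, b * c = 9 ∧ W (bk 5 !![2, b; c, 2]) := by
  have key : ∀ x b c : ZMod 13, x * (4 - x) - b * c = -5 → b = 0 ∧ c = 0 ∨ x = 2 ∧ b * c = 9 ∨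
      ∃ w ∈ [[1, 0], [0, 0, 1, 0, 1, 0], [1, 0, 0, 0], [0, 0, 1, 0, 1, 1, 1, 0], [0, 0, 1, 0, 0, 1, 0, 0, 1, 1]],
        Bad (ev [!![-1, 0; 0, 5], !![x, b; c, 4 - x]] w) := by decide +kernel
  have d := h.dat hB
  obtain ⟨C, h1, h2, h3⟩ := h.inv hB
  obtain ⟨m, C, rfl⟩ := exists_bk (A := C) (by
    rw [← mul_one (C * _), ← h3, mul_assoc, ← mul_assoc (bk 1 _), bk_mul, mul_comm 1, ((Commute.neg_one_left B)).eq,
      ← bk_mul, ← mul_assoc, ← mul_assoc, h2, one_mul])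
  rw [bk_mul, ← bk_one] at h2 h3
  have h4 := h.mul (h.mul hB hy) h1
  rw [bk_mul, bk_mul, mul_right_comm, (bk_inj h3).1, one_mul] at h4
  have h5 : (B * !![-1, 0; 0, 5] * C).trace = 4 := by
    rw [trace_mul_cycle, (bk_inj h2).2, one_mul]; decide
  have h6 : (B * !![-1, 0; 0, 5] * C).det = -5 := by
    rw [det_mul, det_mul, mul_right_comm, ← det_mul, (bk_inj h3).2]; decide
  have h7 : B * !![-1, 0; 0, 5] * C * B = B * !![-1, 0; 0, 5] := by rw [mul_assoc, (bk_inj h2).2, mul_one]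
  generalize B * !![-1, 0; 0, 5] * C = M at h4 h5 h6 h7
  rw [trace_fin_two, ← eq_sub_iff_add_eq'] at h5
  rw [det_fin_two, h5] at h6
  rw [eta_fin_two M, h5] at h4 h7
  rcases key _ _ _ h6 with ⟨e1, e2⟩ | ⟨e1, e2⟩ | ⟨w, -, e⟩
  · have h8 := d.det_ne ⟨l, hB⟩
    have e := fun i j => congrFun (congrFun h7 i) j
    have a1 := e 0 0
    have a2 := e 0 1
    have a3 := e 1 0
    have a4 := e 1 1
    have h9 : (6 : ZMod 13) ≠ 0 := by decide
    simp [mul_apply, e1, e2] at a1 a2 a3 a4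
    left
    unfold Mo
    grind
  · exact .inr ⟨_, _, e2, by rwa [e1, show (4 - 2 : ZMod 13) = 2 by decide] at h4⟩
  · exact absurd e (d.not_bad (by decide) (d.ev (by simpa using ⟨⟨_, hy⟩, _, h4⟩) w))

theorem D3.key (hy : W (bk 5 !![-1, 0; 0, 5])) {I J R : M3} (wI : W I) (wJ : W J) (wR : W R)
    (ii : I * I = bk 1 (-1)) (jj : J * J = bk 1 (-1)) (ij : I * J * (I * J) = bk 1 (-1))
    (rz : R * bk 1 (-1) = bk 1 (-1) * R) (ri : R * I = J * R ∨ R * I = J * bk 1 (-1) * R)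
    (rj : R * J = I * J * R ∨ R * J = I * J * bk 1 (-1) * R) : ∃ b c, b * c = 9 ∧ W (bk 5 !![2, b; c, 2]) := by
  obtain ⟨i, I, rfl⟩ := exists_bk (A := I) (by rw [← ii, mul_assoc])
  obtain ⟨j, J, rfl⟩ := exists_bk (A := J) (by rw [← jj, mul_assoc])
  obtain ⟨r, R, rfl⟩ := exists_bk rz
  simp only [bk_mul] at ii jj ij ri rj
  by_contra hc
  exact not_mo (bk_inj ii).2 (bk_inj jj).2 (bk_inj ij).2 ((h.dat wR).det_ne ⟨_, wR⟩)
    (ri.imp (fun e => (bk_inj e).2) fun e => (bk_inj e).2) (rj.imp (fun e => (bk_inj e).2) fun e => (bk_inj e).2)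
    ((h.step hy wI).resolve_right hc) ((h.step hy wJ).resolve_right hc) ((h.step hy wR).resolve_right hc)

theorem D3.fin (h1 : W !![5, 0, 0; 0, 2, 3; 0, 3, 2]) (h2 : W !![2, 0, 3; 0, 5, 0; 3, 0, 2]) : False := by
  have a1 : W !![8, 0, 0; 0, 10, 11; 0, 11, 10] := by convert h.mul (h.mul h1 h1) h1 using 1; decide +kernel
  have a2 : W !![10, 0, 11; 0, 8, 0; 11, 0, 10] := by convert h.mul (h.mul h2 h2) h2 using 1; decide +kernel
  have a3 : W !![2, 4, 8; 1, 2, 11; 11, 8, 8] := by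
    convert h.mul (h.mul (h.mul a1 h2) h1) a2 using 1; decide +kernel
  have a4 : W (1 + !![4, 2, 7; 8, 4, 1; 1, 7, 5]) := by convert h.mul a3 a3 using 1; decide +kernel
  obtain ⟨m, e1, e2⟩ := h.pp a4
  have k : ∀ n : ℕ, (1 + !![4, 2, 7; 8, 4, 1; 1, 7, 5] : M3) ^ n = 1 + (n : ZMod 13) • !![4, 2, 7; 8, 4, 1; 1, 7, 5] :=
    fun n => by
      induction n with
      | zero => simp
      | succ n ih =>
        rw [pow_succ, ih, mul_add, mul_one, add_mul, one_mul, smul_mul_assoc,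
          show (!![4, 2, 7; 8, 4, 1; 1, 7, 5] * !![4, 2, 7; 8, 4, 1; 1, 7, 5] : M3) = 0 by decide +kernel,
          smul_zero, add_zero, Nat.cast_succ, add_smul, one_smul, add_assoc]
  rw [k, add_eq_left] at e2
  exact e1 ((ZMod.natCast_eq_zero_iff m 13).1 ((smul_eq_zero.1 e2).resolve_right (by decide +kernel)))

theorem D3.hx {I J : M3} (wT : W (bk (-1) !![1, 0; 0, -1])) (wI : W I) (wJ : W J) (i0 : I 0 0 = 1) (j0 : J 0 0 = 1)
    (ii : I * I = bk 1 (-1)) (jj : J * J = bk 1 (-1)) (ij : I * J * (I * J) = bk 1 (-1))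
    (ti : bk (-1) !![1, 0; 0, -1] * I = I * bk (-1) !![1, 0; 0, -1] ∨
      bk (-1) !![1, 0; 0, -1] * I = I * bk 1 (-1) * bk (-1) !![1, 0; 0, -1])
    (tj : bk (-1) !![1, 0; 0, -1] * J = J * bk (-1) !![1, 0; 0, -1] ∨
      bk (-1) !![1, 0; 0, -1] * J = J * bk 1 (-1) * bk (-1) !![1, 0; 0, -1]) : W (bk (-1) !![5, 0; 0, 5]) := by
  have wZ := ii ▸ h.mul wI wI
  have wK := h.mul wI wJ
  obtain ⟨i, I, rfl⟩ := exists_bk (A := I) (by rw [← ii, mul_assoc])
  obtain ⟨j, J, rfl⟩ := exists_bk (A := J) (by rw [← jj, mul_assoc])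
  obtain rfl : i = 1 := i0
  obtain rfl : j = 1 := j0
  simp only [bk_mul, mul_one] at ii jj ij ti tj wK
  have k0 : ∀ x : ZMod 13, (-x = x → x = 0) ∧ (x = -x → x = 0) := by decide
  have k1 : ∀ M : M2 13, bk (-1) (!![1, 0; 0, -1] * M) = bk (1 * -1) (M * !![1, 0; 0, -1]) ∨
      bk (-1) (!![1, 0; 0, -1] * M) = bk (1 * -1) (M * -1 * !![1, 0; 0, -1]) → Mo M := fun M e =>
    e.imp (fun e => ⟨(k0 _).2 (by simpa [mul_apply] using congrFun (congrFun (bk_inj e).2 0) 1),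
      (k0 _).1 (by simpa [mul_apply] using congrFun (congrFun (bk_inj e).2 1) 0)⟩) fun e =>
      ⟨(k0 _).2 (by simpa [mul_apply] using congrFun (congrFun (bk_inj e).2 0) 0),
      (k0 _).1 (by simpa [mul_apply] using congrFun (congrFun (bk_inj e).2 1) 1)⟩
  have k2 : ∀ M : M2 13, W (bk 1 M) → M 0 1 = 0 → M 1 0 = 0 → M 0 0 * M 0 0 = -1 → M 0 0 * M 1 1 = 1 →
      W (bk (-1) !![5, 0; 0, 5]) := fun M w a b c d => by
    rw [eta_fin_two M, a, b] at w
    rcases (by decide : ∀ x y : ZMod 13, x * x = -1 → x * y = 1 → x = 5 ∧ y = 8 ∨ x = 8 ∧ y = 5) _ _ c d with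
      ⟨e1, e2⟩ | ⟨e1, e2⟩ <;> rw [e1, e2] at w
    · convert h.mul wT w using 1; decide +kernel
    · convert h.mul (h.mul wT w) wZ using 1; decide +kernel
  have i1 := congrFun (congrFun (bk_inj ii).2 0) 0
  have i2 := congrFun (congrFun (bk_inj ii).2 1) 1
  have j1 := congrFun (congrFun (bk_inj jj).2 0) 0
  have j2 := congrFun (congrFun (bk_inj jj).2 1) 1
  have k3 := congrFun (congrFun (bk_inj ij).2 0) 0
  have h2 : (2 : ZMod 13) ≠ 0 := by decide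
  rcases k1 I ti with ⟨a1, a2⟩ | ⟨a1, a2⟩ <;> rcases k1 J tj with ⟨b1, b2⟩ | ⟨b1, b2⟩ <;>
    simp [mul_apply, a1, a2, b1, b2] at i1 i2 j1 j2 k3
  · grind
  · exact k2 I wI a1 a2 i1 (by grind)
  · exact k2 J wJ b1 b2 j1 (by grind)
  · refine k2 _ wK ?_ ?_ ?_ ?_ <;> simp [mul_apply, a1, a2, b1, b2] <;> grind

end Ab

open Ab in
theorem ab13 {W : Matrix (Fin 3) (Fin 3) (ZMod 13) → Prop} (mul : ∀ {A B}, W A → W B → W (A * B))
    (pp : ∀ {A}, W A → ∃ m, ¬ 13 ∣ m ∧ A ^ m = 1) {Z T I J R G : Matrix (Fin 3) (Fin 3) (ZMod 13)}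
    (hZ : Z = !![1, 0, 0; 0, -1, 0; 0, 0, -1]) (hT : T = !![-1, 0, 0; 0, 1, 0; 0, 0, -1])
    (wT : W T) (wI : W I) (wJ : W J) (wR : W R) (wG : W G) (i0 : I 0 0 = 1) (j0 : J 0 0 = 1)
    (ii : I * I = Z) (jj : J * J = Z) (ij : I * J * (I * J) = Z) (rz : R * Z = Z * R)
    (ri : R * I = J * R ∨ R * I = J * Z * R) (rj : R * J = I * J * R ∨ R * J = I * J * Z * R)
    (ti : T * I = I * T ∨ T * I = I * Z * T) (tj : T * J = J * T ∨ T * J = J * Z * T)
    (g : G * Z = T * G) : False := by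
  have h : D3 W := ⟨mul, pp⟩
  obtain rfl : Z = bk 1 (-1) := hZ.trans (by decide +kernel)
  obtain rfl : T = bk (-1) !![1, 0; 0, -1] := hT.trans (by decide +kernel)
  have hx := h.hx wT wI wJ i0 j0 ii jj ij ti tj
  obtain ⟨G', wG', g1, g2⟩ := h.inv wG
  have hy : W (bk 5 !![-1, 0; 0, 5]) := by
    convert mul (mul wG hx) wG' using 1
    rw [show bk (-1) !![5, 0; 0, 5] = (2 : ZMod 13) • 1 - (3 : ZMod 13) • bk 1 (-1) by decide +kernel, mul_sub,
      mul_smul_comm, mul_smul_comm, g, sub_mul, smul_mul_assoc, smul_mul_assoc, mul_one, mul_assoc, g2]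
    decide +kernel
  obtain ⟨b, c, e1, w1⟩ := h.key hy wI wJ wR ii jj ij rz ri rj
  obtain ⟨P, hP⟩ : ∃ P : M3, P = !![0, 1, 0; 1, 0, 0; 0, 0, 1] := ⟨_, rfl⟩
  have p1 : P * P = 1 := by rw [hP]; decide +kernel
  let f : M3 → M3 := fun A => P * (G * A * G') * P
  have f1 : ∀ A B, f A * f B = f (A * B) := fun A B => by
    simp only [f, mul_assoc]
    rw [← mul_assoc P P, p1, one_mul, ← mul_assoc G' G, g1, one_mul]
  have f2 : bk 1 (-1) = f (bk 1 (-1)) := by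
    simp only [f]
    rw [g, mul_assoc _ G, g2, hP]
    decide +kernel
  have f3 : ∀ A, W A → W (P * f A * P) := fun A w => by
    simp only [f, ← mul_assoc, p1, one_mul]
    rw [mul_assoc, p1, mul_one]
    exact mul (mul wG w) wG'
  obtain ⟨b', c', e2, w2⟩ := (h.chg p1).key (by convert hx using 1; rw [hP]; decide +kernel) (f3 I wI) (f3 J wJ)
    (f3 R wR) (by rw [f1, ii, ← f2]) (by rw [f1, jj, ← f2]) (by rw [f1, f1, ij, ← f2]) (by rw [f2, f1, f1, rz])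
    (by rw [f2]; simp only [f1]; exact ri.imp (congrArg f) (congrArg f))
    (by rw [f2]; simp only [f1]; exact rj.imp (congrArg f) (congrArg f))
  refine (h.chg (B := !![3 * b' * 3, 0, 0; 0, 3 * b * 3, 0; 0, 0, 1]) (B' := !![3 * c' * 3, 0, 0; 0, 3 * c * 3, 0; 0, 0, 1])
    ?_).fin ?_ ?_
  · exact (by decide +kernel : ∀ b c : ZMod 13, b * c = 9 → ∀ b' c' : ZMod 13, b' * c' = 9 →
      (!![3 * b' * 3, 0, 0; 0, 3 * b * 3, 0; 0, 0, 1] * !![3 * c' * 3, 0, 0; 0, 3 * c * 3, 0; 0, 0, 1] : M3) = 1)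
      b c e1 b' c' e2
  · convert w1 using 1
    exact (by decide +kernel : ∀ b c : ZMod 13, b * c = 9 → ∀ b' c' : ZMod 13, b' * c' = 9 →
      (!![3 * b' * 3, 0, 0; 0, 3 * b * 3, 0; 0, 0, 1] * !![5, 0, 0; 0, 2, 3; 0, 3, 2] *
        !![3 * c' * 3, 0, 0; 0, 3 * c * 3, 0; 0, 0, 1] : M3) = bk 5 !![2, b; c, 2]) b c e1 b' c' e2
  · convert w2 using 1
    rw [hP]
    exact (by decide +kernel : ∀ b c : ZMod 13, b * c = 9 → ∀ b' c' : ZMod 13, b' * c' = 9 →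
      (!![3 * b' * 3, 0, 0; 0, 3 * b * 3, 0; 0, 0, 1] * !![2, 0, 3; 0, 5, 0; 3, 0, 2] *
        !![3 * c' * 3, 0, 0; 0, 3 * c * 3, 0; 0, 0, 1] : M3) =
        !![0, 1, 0; 1, 0, 0; 0, 0, 1] * bk 5 !![2, b'; c', 2] * !![0, 1, 0; 1, 0, 0; 0, 0, 1]) b c e1 b' c' e2

end Cfsg.Agent.RV
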