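import Mathlib

/-! Coordinates on an extraspecial group of order `p³` and exponent `p`. -/

set_option autoImplicit false

namespace Cfsg.Agent.RV

open Matrix

variable {p : ℕ} {G : Type*} [Group G]

/-- The symplectic form. -/
def om (v w : Fin 2 → ZMod p) : ZMod p := v 0 * w 1 - v 1 * w 0

/-- `u` parametrises a Heisenberg group. -/
structure Hs (u : (Fin 2 → ZMod p) → ZMod p → G) : Prop where
  mul : ∀ v c w d, u v c * u w d = u (v + w) (c + d + om v w)
  inj : ∀ v c, u v c = 1 → v = 0 ∧ c = 0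

/-- `g` normalises the Heisenberg group and induces `A` on the central quotient. -/
def Nrm (u : (Fin 2 → ZMod p) → ZMod p → G) (g : G) (A : Matrix (Fin 2) (Fin 2) (ZMod p)) : Prop :=
  ∀ v c, ∃ d, g * u v c * g⁻¹ = u (A *ᵥ v) d

/-- Some element over `v` is conjugate to a central element. -/
def Fz (u : (Fin 2 → ZMod p) → ZMod p → G) (v : Fin 2 → ZMod p) : Prop :=
  ∃ c k, IsConj (u v c) (u 0 k)

/-- The monomial matrices with ratio in `D`, antidiagonal ones only if `σ`. -/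
def LW (D : Subgroup (ZMod p)ˣ) (σ : Prop) (A : Matrix (Fin 2) (Fin 2) (ZMod p)) : Prop :=
  ∃ a b : (ZMod p)ˣ, a / b ∈ D ∧ (A = !![(a : ZMod p), 0; 0, b] ∨ σ ∧ A = !![0, (a : ZMod p); b, 0])

namespace Hs

variable {u : (Fin 2 → ZMod p) → ZMod p → G} (h : Hs u)
include h

theorem zero : u 0 0 = 1 := by simpa [om] using h.mul 0 0 0 0

theorem inv (v : Fin 2 → ZMod p) (c : ZMod p) : (u v c)⁻¹ = u (-v) (-c) :=
  inv_eq_of_mul_eq_one_right (by rw [h.mul, ← h.zero]; congr 1 <;> simp [om, mul_comm])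

theorem eq_iff {v w : Fin 2 → ZMod p} {c d : ZMod p} : u v c = u w d ↔ v = w ∧ c = d := by
  refine ⟨fun e => ?_, fun e => by rw [e.1, e.2]⟩
  obtain ⟨h1, h2⟩ := h.inj _ _ ((h.mul v c (-w) (-d)).symm.trans (by rw [← h.inv, e, mul_inv_cancel]))
  obtain rfl := add_neg_eq_zero.1 h1
  exact ⟨rfl, by simpa [om, mul_comm, add_neg_eq_zero] using h2⟩

theorem conj (v w : Fin 2 → ZMod p) (c d : ZMod p) :
    u v c * u w d * (u v c)⁻¹ = u w (d + 2 * om v w) := by
  rw [h.inv, h.mul, h.mul, h.eq_iff]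
  exact ⟨by abel, by simp only [om, Pi.add_apply, Pi.neg_apply]; ring⟩

theorem pow (v : Fin 2 → ZMod p) (c : ZMod p) (n : ℕ) : u v c ^ n = u ((n : ZMod p) • v) (n * c) := by
  induction n with
  | zero => simp [h.zero]
  | succ n ih =>
    rw [pow_succ, ih, h.mul, h.eq_iff]
    exact ⟨by simp [add_smul], by simp [om]; ring⟩

theorem map {G' : Type*} [Group G'] (f : G →* G') (hf : Function.Injective f) :
    Hs fun v c => f (u v c) :=
  ⟨fun _ _ _ _ => by rw [← map_mul, h.mul], fun _ _ e => h.inj _ _ ((injective_iff_map_eq_one f).1 hf _ e)⟩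

/-- It is enough to check the action on the two generators. -/
theorem nrm [NeZero p] (hp : (2 : ZMod p) ≠ 0) [Fact p.Prime] {g : G}
    {A : Matrix (Fin 2) (Fin 2) (ZMod p)} {d₀ d₁ : ZMod p}
    (h0 : g * u ![1, 0] 0 * g⁻¹ = u ![A 0 0, A 1 0] d₀)
    (h1 : g * u ![0, 1] 0 * g⁻¹ = u ![A 0 1, A 1 1] d₁) : Nrm u g A := fun v c => by
  have e : ∀ a b c, u ![a, b] c = u ![1, 0] 0 ^ a.val * u ![0, 1] 0 ^ b.val *
      (u ![1, 0] 0 * u ![0, 1] 0 * (u ![1, 0] 0)⁻¹ * (u ![0, 1] 0)⁻¹) ^ ((c - a * b) / 2).val :=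
    fun a b c => by
      rw [h.conj, h.inv, h.mul, h.pow, h.pow, h.pow, h.mul, h.mul, h.eq_iff]
      refine ⟨funext fun i => by fin_cases i <;> simp, ?_⟩
      simp [om]
      field_simp
      ring
  rw [show v = ![v 0, v 1] from funext fun i => by fin_cases i <;> rfl, e]
  simp only [← conj_mul, ← conj_inv, ← conj_pow, h0, h1]
  rw [h.conj, h.inv, h.mul, h.pow, h.pow, h.pow, h.mul, h.mul]
  refine ⟨_, h.eq_iff.2 ⟨funext fun i => ?_, rfl⟩⟩
  fin_cases i <;> simp [mulVec, dotProduct] <;> ring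

end Hs

theorem exists_hs [Fact p.Prime] (hp : (2 : ZMod p) ≠ 0) {x y z : G} (hx : x ^ p = 1) (hy : y ^ p = 1)
    (hz : z ^ p = 1) (h1 : z ≠ 1) (xz : Commute x z) (yz : Commute y z) (e : x * y = y * x * z) :
    ∃ u : (Fin 2 → ZMod p) → ZMod p → G, Hs u ∧ ∀ a b c : ℕ,
      u ![a, b] (a * b + 2 * c) = x ^ a * y ^ b * z ^ c := by
  have pw : ∀ {g : G}, g ^ p = 1 → ∀ {m n : ℕ}, (m : ZMod p) = n → g ^ m = g ^ n := fun hg _ _ e =>
    pow_eq_pow_iff_modEq.2 (((ZMod.natCast_eq_natCast_iff _ _ _).1 e).of_dvd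
      (orderOf_dvd_of_pow_eq_one hg))
  have e1 : ∀ a b : ℕ, x ^ a * y ^ b = y ^ b * x ^ a * z ^ (a * b) := fun a b => by
    have : ∀ a : ℕ, x ^ a * y = y * x ^ a * z ^ a := fun a => by
      induction a with
      | zero => simp
      | succ a ih =>
        rw [pow_succ, mul_assoc, e, ← mul_assoc, ← mul_assoc, ih, mul_assoc _ _ x,
          ← (xz.pow_right a).eq, pow_succ]; group
    induction b with
    | zero => simp
    | succ b ih =>
      rw [pow_succ, ← mul_assoc, ih, mul_assoc, ← (yz.pow_right _).eq, ← mul_assoc,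
        mul_assoc _ _ y, this, mul_add, mul_one, add_comm, pow_add]; group
  have m : ∀ (v : Fin 2 → ZMod p) c (w : Fin 2 → ZMod p) d,
      x ^ (v 0).val * y ^ (v 1).val * z ^ ((c - v 0 * v 1) / 2).val *
      (x ^ (w 0).val * y ^ (w 1).val * z ^ ((d - w 0 * w 1) / 2).val) =
      x ^ ((v + w) 0).val * y ^ ((v + w) 1).val *
        z ^ ((c + d + om v w - (v + w) 0 * (v + w) 1) / 2).val := fun v c w d => by
    rw [pw hx (m := ((v + w) 0).val) (n := (v 0).val + (w 0).val) (by simp),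
      pw hy (m := ((v + w) 1).val) (n := (v 1).val + (w 1).val) (by simp),
      pw hz (m := ((c - v 0 * v 1) / 2).val) (n := (w 0).val * (v 1).val +
        ((c - v 0 * v 1) / 2 - w 0 * v 1).val) (by simp),
      pw hz (m := ((c + d + om v w - (v + w) 0 * (v + w) 1) / 2).val) (n :=
        ((c - v 0 * v 1) / 2 - w 0 * v 1).val + ((d - w 0 * w 1) / 2).val)
        (by simp [om]; field_simp; ring)]
    generalize ((c - v 0 * v 1) / 2 - w 0 * v 1).val = k, ((d - w 0 * w 1) / 2).val = l,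
      (v 0).val = a, (v 1).val = b, (w 0).val = a', (w 1).val = b'
    have c1 := ((xz.pow_pow a' (a' * b + k)).mul_left (yz.pow_pow b' (a' * b + k))).eq
    calc _ = x ^ a * y ^ b * (z ^ (a' * b + k) * (x ^ a' * y ^ b')) * z ^ l := by group
      _ = x ^ a * (y ^ b * x ^ a') * (y ^ b' * z ^ (a' * b)) * z ^ k * z ^ l := by rw [← c1]; group
      _ = x ^ a * (y ^ b * x ^ a' * z ^ (a' * b)) * y ^ b' * z ^ k * z ^ l := by
        rw [(yz.pow_pow _ _).eq]; group
      _ = _ := by rw [← e1]; group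
  refine ⟨fun v c => x ^ (v 0).val * y ^ (v 1).val * z ^ ((c - v 0 * v 1) / 2).val,
    ⟨m, fun v c e => ?_⟩, fun a b c => ?_⟩
  · have z0 : ∀ s : ZMod p, z ^ s.val = 1 → s = 0 := fun s e => by
      rw [← ZMod.natCast_zmod_val s, ZMod.natCast_eq_zero_iff]
      exact (orderOf_eq_prime hz h1).symm.dvd.trans (orderOf_dvd_of_pow_eq_one e)
    have h2 : ∀ w, om v w = 0 := fun w => by
      have h3 := m v c w 0
      have h4 := m w 0 v c
      rw [e, one_mul] at h3
      rw [e, mul_one, h3, add_comm w, mul_right_inj, ← mul_left_inj (z ^ (-((0 + c + om w v -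
        (v + w) 0 * (v + w) 1) / 2)).val), ← pow_add, ← pow_add, pw hz (m := _ + _) (n := (om v w).val)
        (by simp [om]; field_simp; ring), pw hz (m := _ + _) (n := 0) (by simp), pow_zero] at h4
      exact z0 _ h4
    obtain rfl : v = 0 := funext fun i => by
      fin_cases i
      · simpa [om] using h2 ![0, 1]
      · simpa [om] using h2 ![1, 0]
    exact ⟨rfl, by simpa [hp] using z0 (c / 2) (by simpa using e)⟩
  · exact congrArg₂ _ (congrArg₂ _ (pw hx (by simp)) (pw hy (by simp))) (pw hz (by simp [hp]))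

end Cfsg.Agent.RV
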