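import Cfsg.Agent.RV.Lin
import Cfsg.Agent.Fus.Act
import Cfsg.Agent.Fus.Resist
import Cfsg.Agent.Fus.GroupQuot

/-! A saturated fusion system on `p_+^{1+2}` is determined by its outer automizer `WF` and the set `EF`. -/

set_option autoImplicit false

namespace Cfsg.Agent.RV

open Matrix Cfsg.FusionSystem Cfsg.Agent.Fus

variable {p : ℕ} {Ω : Type*} [Group Ω] {S : Subgroup Ω}

/-- `u` parametrises `S`. -/
structure Co (S : Subgroup Ω) (u : V2 p → ZMod p → Ω) : Prop extends Hs u where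
  mem : ∀ {x}, x ∈ S ↔ ∃ v c, u v c = x

/-- Coordinates on the abelian subgroup over the line of `v`. -/
def e (u : V2 p → ZMod p → Ω) (v y : V2 p) : Ω := u (y 0 • v) (y 1)

/-- The matrices of the automorphisms of `S`. -/
def WF (F : FusionSystem S) (u : V2 p → ZMod p → Ω) (A : M2 p) : Prop :=
  ∃ g, IsMap F S g ∧ ∀ v c, g (u v c) = u (A *ᵥ v) (A.det * c)

/-- The vectors over which there is an image of a central element. -/
def EF (F : FusionSystem S) (u : V2 p → ZMod p → Ω) (v : V2 p) : Prop :=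
  ∃ P f k c, IsMap F P f ∧ u 0 k ∈ P ∧ f (u 0 k) = u v c

variable {u : V2 p → ZMod p → Ω}

theorem Hs.e_mul (h : Hs u) (v y y' : V2 p) : e u v y * e u v y' = e u v (y + y') := by
  rw [e, e, e, h.mul, h.eq_iff]
  exact ⟨by simp [add_smul], by simp [om]; ring⟩

theorem Hs.e_pow (h : Hs u) (v y : V2 p) (n : ℕ) : e u v y ^ n = e u v ((n : ZMod p) • y) := by
  simp [e, h.pow, smul_smul]

/-- The abelian subgroup over the line of `v`. -/
def Hs.V (h : Hs u) (v : V2 p) : Subgroup Ω where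
  carrier := Set.range (e u v)
  one_mem' := ⟨0, by simp [e, h.zero]⟩
  mul_mem' := by rintro _ _ ⟨a, rfl⟩ ⟨b, rfl⟩; exact ⟨_, (h.e_mul ..).symm⟩
  inv_mem' := by rintro _ ⟨a, rfl⟩; exact ⟨-a, by simp [e, h.inv]⟩

theorem Hs.e_mem (h : Hs u) (v y : V2 p) : e u v y ∈ h.V v := ⟨y, rfl⟩

theorem Hs.exists_co (h : Hs u) : ∃ R, Co R u :=
  ⟨{ carrier := {x | ∃ v c, u v c = x}
     one_mem' := ⟨0, 0, h.zero⟩
     mul_mem' := by rintro _ _ ⟨v, c, rfl⟩ ⟨w, d, rfl⟩; exact ⟨_, _, (h.mul ..).symm⟩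
     inv_mem' := by rintro _ ⟨v, c, rfl⟩; exact ⟨_, _, (h.inv ..).symm⟩ }, h, Iff.rfl⟩

theorem Hs.chg (h : Hs u) {B B' : M2 p} (hB : B * B' = 1) : Hs fun v c => u (B *ᵥ v) (B.det * c) := by
  have hB' := mul_eq_one_comm.1 hB
  refine ⟨fun v c w d => by rw [h.mul, om_mulVec, mulVec_add]; congr 1; ring, fun v c e => ?_⟩
  obtain ⟨h1, h2⟩ := h.inj _ _ e
  exact ⟨by rw [← one_mulVec v, ← hB', ← mulVec_mulVec, h1, mulVec_zero], by
    rw [← one_mul c, ← det_one (n := Fin 2), ← hB', det_mul, mul_assoc, h2, mul_zero]⟩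

theorem Co.chg (h : Co S u) {B B' : M2 p} (hB : B * B' = 1) : Co S fun v c => u (B *ᵥ v) (B.det * c) :=
  ⟨h.toHs.chg hB, h.mem.trans ⟨fun ⟨v, c, e⟩ => ⟨B' *ᵥ v, B'.det * c, by
    rwa [mulVec_mulVec, ← mul_assoc, ← det_mul, hB, det_one, one_mul, one_mulVec]⟩, fun ⟨_, _, e⟩ => ⟨_, _, e⟩⟩⟩

theorem WF_chg (F : FusionSystem S) (u : V2 p → ZMod p → Ω) {B B' : M2 p} (hB : B * B' = 1) :
    WF F (fun v c => u (B *ᵥ v) (B.det * c)) = fun A => WF F u (B * A * B') := by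
  have hB' := mul_eq_one_comm.1 hB
  refine funext fun A => propext (exists_congr fun g => and_congr_right' ⟨fun h v c => ?_, fun h v c => ?_⟩)
  · simpa only [mulVec_mulVec, ← mul_assoc, ← det_mul, hB, det_one, one_mul, one_mulVec] using
      h (B' *ᵥ v) (B'.det * c)
  · rw [h]
    simp only [mulVec_mulVec, ← mul_assoc, ← det_mul]
    rw [mul_assoc _ B', hB', mul_one]

theorem EF_chg (F : FusionSystem S) (u : V2 p → ZMod p → Ω) {B B' : M2 p} (hB : B * B' = 1) :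
    EF F (fun v c => u (B *ᵥ v) (B.det * c)) = fun v => EF F u (B *ᵥ v) := funext fun _ => propext
  ⟨fun ⟨P, f, k, c, h⟩ => ⟨P, f, _, _, by simpa only [mulVec_zero] using h⟩, fun ⟨P, f, k, c, h⟩ =>
    ⟨P, f, B'.det * k, B'.det * c, by simpa only [mulVec_zero, ← mul_assoc, ← det_mul, hB, det_one, one_mul] using h⟩⟩

variable [Fact p.Prime] {F F' : FusionSystem S}

namespace Co

variable (h : Co S u)
include h

theorem mem' (v : V2 p) (c : ZMod p) : u v c ∈ S := h.mem.2 ⟨v, c, rfl⟩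

theorem V_le (v : V2 p) : h.V v ≤ S := by rintro _ ⟨y, rfl⟩; exact h.mem' _ _

theorem card : Nat.card S = p ^ 3 := by
  have : NeZero p := ⟨(Fact.out : p.Prime).ne_zero⟩
  refine (Nat.card_congr (Equiv.ofBijective (fun x : V2 p × ZMod p => (⟨_, h.mem' x.1 x.2⟩ : S))
    ⟨fun x y e => Prod.ext_iff.2 (h.eq_iff.1 (congrArg Subtype.val e)), fun x => ?_⟩)).symm.trans (by simp; ring)
  obtain ⟨v, c, e⟩ := h.mem.1 x.2
  exact ⟨(v, c), Subtype.ext e⟩

theorem pgrp : IsPGroup p S := .of_card h.card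

theorem e_inj {v y y' : V2 p} (hv : v ≠ 0) : e u v y = e u v y' ↔ y = y' :=
  ⟨fun k => by
    obtain ⟨h1, h2⟩ := h.eq_iff.1 k
    rw [eta y, eta y', h2, smul_left_injective _ hv h1], congrArg _⟩

theorem hom_V {f : Ω → Ω} {v w m n : V2 p} {c : ZMod p} (hf : HomOn (h.V v) f) (h0 : f (e u v ![1, c]) = e u w m)
    (h1 : f (e u v ![0, 1]) = e u w n) (y : V2 p) :
    f (e u v y) = e u w (!![m 0 - c * n 0, n 0; m 1 - c * n 1, n 1] *ᵥ y) := by
  have : NeZero p := ⟨(Fact.out : p.Prime).ne_zero⟩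
  have k : e u v y = e u v ![1, c] ^ (y 0).val * e u v ![0, 1] ^ (y 1 - c * y 0).val := by
    rw [h.e_pow, h.e_pow, h.e_mul]
    congr 1
    ext i
    fin_cases i <;> simp [mul_comm]
  rw [k, hf.map_mul (pow_mem (h.e_mem ..) _) (pow_mem (h.e_mem ..) _), hf.map_pow (h.e_mem ..),
    hf.map_pow (h.e_mem ..), h0, h1, h.e_pow, h.e_pow, h.e_mul]
  congr 1
  ext i
  fin_cases i <;> simp [vecHead, vecTail] <;> ring

variable (hp : (2 : ZMod p) ≠ 0)
include hp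

theorem exists_conj {v : V2 p} (hv : v ≠ 0) (t : ZMod p) : ∃ s, 2 * om s v = t := by
  obtain ⟨s, hs⟩ := exists_om hv
  exact ⟨(t / 2) • s, by simp only [om, Pi.smul_apply, smul_eq_mul] at *; field_simp; linear_combination t * hs⟩

theorem canon {f : Ω → Ω} (hf : IsMap F S f) :
    ∃ A s, WF F u A ∧ ∀ v c, f (u v c) = u (A *ᵥ v) (A.det * (c + 2 * om s v)) := by
  have : NeZero p := ⟨(Fact.out : p.Prime).ne_zero⟩
  obtain ⟨a, d₀, h0⟩ := h.mem.1 (hf.mem (h.mem' ![1, 0] 0))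
  obtain ⟨b, d₁, h1⟩ := h.mem.1 (hf.mem (h.mem' ![0, 1] 0))
  have k : ∀ v c, f (u v c) = u (!![a 0, b 0; a 1, b 1] *ᵥ v) (om a b * c + v 0 * d₀ + v 1 * d₁) := fun v c => by
    have e : u v c = u ![1, 0] 0 ^ (v 0).val * u ![0, 1] 0 ^ (v 1).val *
        (u ![1, 0] 0 * u ![0, 1] 0 * (u ![1, 0] 0)⁻¹ * (u ![0, 1] 0)⁻¹) ^ ((c - v 0 * v 1) / 2).val := by
      rw [h.conj, h.inv, h.mul, h.pow, h.pow, h.pow, h.mul, h.mul, h.eq_iff]
      refine ⟨funext fun i => by fin_cases i <;> simp, ?_⟩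
      simp [om]
      field_simp
      ring
    have m := h.mem'
    have m' := mul_mem (mul_mem (m ![1, 0] 0) (m ![0, 1] 0)) (inv_mem (m ![1, 0] 0))
    rw [e, hf.map_mul (mul_mem (pow_mem (m ..) _) (pow_mem (m ..) _)) (pow_mem (mul_mem m' (inv_mem (m ..))) _),
      hf.map_mul (pow_mem (m ..) _) (pow_mem (m ..) _), hf.map_pow (m ..), hf.map_pow (m ..),
      hf.map_pow (mul_mem m' (inv_mem (m ..))), hf.map_mul m' (inv_mem (m ..)), hf.map_conj (m ..) (m ..),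
      hf.map_inv (m ..), ← h0, ← h1, h.conj, h.inv, h.mul, h.pow, h.pow, h.pow, h.mul, h.mul, h.eq_iff]
    refine ⟨funext fun i => by fin_cases i <;> simp [vecHead, vecTail] <;> ring, ?_⟩
    simp [om]
    field_simp
    ring
  have hd : om a b ≠ 0 := fun e => one_ne_zero (h.inj 0 1 ((hf.eq_one_iff (h.mem' ..)).1 (by
    simp [k, e, h.zero]))).2
  have e : (!![a 0, b 0; a 1, b 1] : M2 p).det = om a b := by simp [om, mul_comm]
  have k' : ∀ v c, f (u v c) = u (!![a 0, b 0; a 1, b 1] *ᵥ v) (om a b * (c + 2 *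
      om ![d₁ / (2 * om a b), -d₀ / (2 * om a b)] v)) := fun v c => by
    rw [k, h.eq_iff]
    refine ⟨rfl, ?_⟩
    generalize om a b = t at hd
    simp [om]
    field_simp
    ring
  refine ⟨_, _, ⟨_, hf.comp' (isMap_conj F le_rfl (inv_mem (h.mem' ![d₁ / (2 * om a b), -d₀ / (2 * om a b)] 0)))
    fun x hx => mul_mem (mul_mem (inv_mem (h.mem' ..)) hx) (inv_mem (inv_mem (h.mem' ..))), fun v c => ?_⟩, e ▸ k'⟩
  rw [h.inv, h.conj, k', e]
  congr 2
  simp [om]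
  ring

theorem WF_of {f : Ω → Ω} (hf : IsMap F S f) {A : M2 p} (k : ∀ v c, ∃ d, f (u v c) = u (A *ᵥ v) d) : WF F u A := by
  obtain ⟨B, s, h1, h2⟩ := h.canon hp hf
  rwa [ext_iff_mulVec.2 fun v => (k v 0).elim fun d e => (h.eq_iff.1 (e.symm.trans (h2 v 0))).1]

theorem top_le (hW : ∀ A, WF F u A → WF F' u A) {f : Ω → Ω} (hf : IsMap F S f) : IsMap F' S f := by
  obtain ⟨A, s, h1, h2⟩ := h.canon hp hf
  obtain ⟨g, h3, h4⟩ := hW A h1
  refine (h3.comp' (isMap_conj F' le_rfl (h.mem' s 0)) fun x hx =>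
    mul_mem (mul_mem (h.mem' ..) hx) (inv_mem (h.mem' ..))).congr fun x hx => ?_
  obtain ⟨v, c, rfl⟩ := h.mem.1 hx
  rw [h.conj, h4, h2]

/-- The subgroups containing their centraliser. -/
theorem centric {P : Subgroup Ω} (hP : P ≤ S) (hC : centralizerIn S P ≤ P) : P = S ∨ ∃ v ≠ 0, P = h.V v := by
  have hZ : ∀ c, u 0 c ∈ P := fun c => hC ⟨h.mem' .., fun x hx => by
    obtain ⟨v, d, rfl⟩ := h.mem.1 (hP hx)
    simp [h.mul, om, add_comm]⟩
  have h1 : ∀ {v c}, u v c ∈ P → ∀ (a : ZMod p) d, u (a • v) d ∈ P := fun {v c} k a d => by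
    have : NeZero p := ⟨(Fact.out : p.Prime).ne_zero⟩
    simpa [h.pow, h.mul, om] using mul_mem (pow_mem k a.val) (hZ (d - a * c))
  obtain ⟨v, hv, c, hc⟩ : ∃ v ≠ 0, ∃ c, u v c ∈ P := by
    by_contra! hc
    refine hc ![1, 0] (by simp) 0 (hC ⟨h.mem' .., fun x hx => ?_⟩)
    obtain ⟨v, d, rfl⟩ := h.mem.1 (hP hx)
    obtain rfl : v = 0 := by_contra fun k => hc v k d hx
    simp [h.mul, om]
  by_cases h2 : ∀ w d, u w d ∈ P → om v w = 0
  · refine .inr ⟨v, hv, le_antisymm (fun x hx => ?_) (by rintro _ ⟨y, rfl⟩; exact h1 hc ..)⟩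
    obtain ⟨w, d, rfl⟩ := h.mem.1 (hP hx)
    obtain ⟨a, rfl⟩ := exists_smul hv (h2 w d hx)
    exact ⟨![a, d], rfl⟩
  · push Not at h2
    obtain ⟨w, d, hw, h2⟩ := h2
    refine .inl (le_antisymm hP fun x hx => ?_)
    obtain ⟨t, k, rfl⟩ := h.mem.1 hx
    have := mul_mem (h1 hc (om t w / om v w) (k - om ((om t w / om v w) • v) ((om v t / om v w) • w)))
      (h1 hw (om v t / om v w) 0)
    rw [h.mul, add_zero, sub_add_cancel] at this
    convert this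
    ext i
    simp only [Pi.add_apply, Pi.smul_apply, smul_eq_mul]
    field_simp
    fin_cases i <;> simp [om] <;> ring

end Co

/-- `M` is the matrix of a map between abelian subgroups. -/
def Co.L (h : Co S u) (F : FusionSystem S) (v w : V2 p) (M : M2 p) : Prop :=
  ∃ f, IsMap F (h.V v) f ∧ ∀ y, f (e u v y) = e u w (M *ᵥ y)

namespace Co

variable {h : Co S u} {v w t : V2 p} {M N : M2 p}

theorem L.comp (a : h.L F w t N) (b : h.L F v w M) : h.L F v t (N * M) :=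
  let ⟨_, h1, h2⟩ := a
  let ⟨_, h3, h4⟩ := b
  ⟨_, h1.comp' h3 (by rintro _ ⟨y, rfl⟩; exact ⟨_, (h4 y).symm⟩), fun y => by rw [h4, h2, mulVec_mulVec]⟩

theorem L.cancel (a : h.L F v w M) (b : h.L F t w (M * N)) : h.L F t v N := by
  obtain ⟨f, h1, h2⟩ := a
  obtain ⟨g, h3, h4⟩ := b
  obtain ⟨f', h5, h6, -⟩ := h1.exists_inv
  have k : ∀ y, g (e u t y) = f (e u v (N *ᵥ y)) := fun y => by rw [h4, h2, mulVec_mulVec]
  exact ⟨_, h5.comp' h3 (by rintro _ ⟨y, rfl⟩; exact k y ▸ mem_img_of_mem f ⟨_, rfl⟩),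
    fun y => by rw [k, h6 _ ⟨_, rfl⟩]⟩

theorem L.det (a : h.L F v w M) (hv : v ≠ 0) : M.det ≠ 0 := fun k => by
  obtain ⟨f, h1, h2⟩ := a
  obtain ⟨y, h3, h4⟩ := exists_mulVec_eq_zero_iff.2 k
  exact h3 ((h.e_inj hv).1 (h1.inj ⟨y, rfl⟩ ⟨0, rfl⟩ (by rw [h2, h2, h4, mulVec_zero])))

theorem L_of {f : Ω → Ω} (hf : IsMap F (h.V v) f) (k : ∀ x ∈ h.V v, f x ∈ h.V w) :
    ∃ M, ∀ y, f (e u v y) = e u w (M *ᵥ y) :=
  let ⟨_, a⟩ := k _ ⟨![1, 0], rfl⟩
  let ⟨_, b⟩ := k _ ⟨![0, 1], rfl⟩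
  ⟨_, h.hom_V hf.homOn a.symm b.symm⟩

variable (hp : (2 : ZMod p) ≠ 0)
include hp

theorem L_inner (hv : v ≠ 0) (c : ZMod p) : h.L F v v !![1, 0; c, 1] := by
  obtain ⟨s, rfl⟩ := h.exists_conj hp hv c
  refine ⟨_, isMap_conj F (h.V_le v) (h.mem' s 0), fun y => ?_⟩
  simp [e, h.conj, om, h.eq_iff, vecHead, vecTail]
  ring

variable [Finite S] (hF : F.IsSaturated p)
include hF

theorem L_ext (hv : v ≠ 0) {f : Ω → Ω} (hf : IsMap F (h.V v) f) (k : ∀ y, f (e u v y) = e u v (M *ᵥ y))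
    (h0 : M 0 1 = 0) : S ≤ Nf S (h.V v) f ∧ ∃ g, IsMap F S g ∧ ∀ x ∈ h.V v, g x = f x := by
  have := finite_of_le (h.V_le v)
  have h1 : M 0 0 ≠ 0 := fun e => L.det (h := h) ⟨f, hf, k⟩ hv (by simp [det_fin_two, e, h0])
  have h2 : ∀ a b y, u a b * e u v y * (u a b)⁻¹ = e u v ![y 0, y 1 + 2 * y 0 * om a v] := fun a b y => by
    simp [e, h.conj, om, h.eq_iff]
    ring
  have h3 : S ≤ Nf S (h.V v) f := fun x hx => by
    obtain ⟨a, b, rfl⟩ := h.mem.1 hx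
    refine ⟨mem_normalizerIn_of_conj hx (by rintro _ ⟨y, rfl⟩; exact ⟨_, (h2 ..).symm⟩),
      _, h.mem' ((M 1 1 / M 0 0) • a) 0, ?_⟩
    rintro _ ⟨y, rfl⟩
    rw [h2, k, k, h2]
    congr 1
    ext i
    fin_cases i <;> simp [h0, om]
    field_simp
    ring
  refine ⟨h3, sat_extend h.pgrp hF hf ?_ h3⟩
  rw [hf.img_eq_self (by rintro _ ⟨y, rfl⟩; exact ⟨_, (k y).symm⟩)]
  exact sat_fullyCentralized h.pgrp hF (fullyNormalized_of_le_normalizer F (h.V_le v) fun x hx => (h3 hx).1.2)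

theorem L_sl (hv : v ≠ 0) (hE : EF F u v) (hN : N.det = 1) : h.L F v v N := by
  obtain ⟨P, f, k, c, h1, h2, h3⟩ := hE
  obtain ⟨f', h4, h5, -⟩ := h1.exists_inv
  have h6 : f' (u v c) = u 0 k := h3 ▸ h5 _ h2
  replace h4 := h4.mono (Subgroup.zpowers_le.2 (h3 ▸ mem_img_of_mem f h2))
  obtain ⟨g, h7, h8⟩ := sat_extend_centralizer h.pgrp hF h4
    (fullyCentralized_of_central h.pgrp hF h4.img_le fun s hs c hc => by
      obtain ⟨_, ⟨n, rfl⟩, rfl⟩ := h4.mem_img.1 hc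
      obtain ⟨a, b, rfl⟩ := h.mem.1 hs
      rw [h4.map_zpow (Subgroup.mem_zpowers _), h6]
      exact (Commute.zpow_right (by simp [Commute, SemiconjBy, h.mul, om, add_comm]) n).eq)
  replace h8 := (h8 _ (Subgroup.mem_zpowers _)).trans h6
  replace h7 := h7.mono (Q := h.V v) (le_sup_of_le_right (by
    rintro _ ⟨y, rfl⟩
    refine ⟨h.mem' .., ?_⟩
    rintro _ ⟨n, rfl⟩
    refine (Commute.zpow_left ?_ n).eq
    rw [show u v c = e u v ![1, c] by simp [e], Commute, SemiconjBy, h.e_mul, h.e_mul, add_comm]))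
  obtain ⟨w, d, h9⟩ := h.mem.1 (h7.mem ⟨![0, 1], rfl⟩)
  have k0 : k ≠ 0 := by
    rintro rfl
    exact hv (h.inj _ _ (by rw [← h3, h.zero, h1.map_one])).1
  have w0 : w ≠ 0 := by
    rintro rfl
    have a : h.L F v 0 _ := ⟨g, h7, h.hom_V h7.homOn (w := 0) (m := ![0, k]) (n := ![0, d]) (c := c)
      (by simpa [e] using h8) (by simpa [e] using h9.symm)⟩
    exact a.det hv (by simp)
  have a : h.L F v w !![0, 1; k, d] := by
    have a : h.L F v w _ := ⟨g, h7, h.hom_V h7.homOn (w := w) (m := ![0, k]) (n := ![1, d]) (c := c)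
      (by simpa [e] using h8) (by simpa [e] using h9.symm)⟩
    simpa [mul_comm] using a.comp (L_inner hp hv c)
  have U : ∀ s, h.L F v v !![1, s; 0, 1] := fun s => a.cancel (by
    simpa [add_comm] using (L_inner hp w0 (k * s)).comp a)
  have key : ∀ N : M2 p, N.det = 1 → N 0 1 ≠ 0 → h.L F v v N := fun N h1 h2 => by
    convert ((L_inner hp hv ((N 1 1 - 1) / N 0 1)).comp (U (N 0 1))).comp (L_inner hp hv ((N 0 0 - 1) / N 0 1))
    rw [det_fin_two] at h1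
    ext i j
    fin_cases i <;> fin_cases j <;> simp <;> field_simp
    · ring
    · linear_combination -h1
    · ring
  by_cases h0 : N 0 1 = 0
  · have := (key (N * !![1, 1; 0, 1]) (by simp [hN]) (by
      rw [det_fin_two, h0] at hN
      simpa [mul_apply, h0] using left_ne_zero_of_mul_eq_one (by simpa using hN))).comp (U (-1))
    simpa [mul_assoc, ← one_fin_two] using this
  · exact key N hN h0

variable (h)
include h

theorem dat : Dat (WF F u) (EF F u) := by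
  refine ⟨⟨_, isMap_id F le_rfl, by simp⟩, fun ⟨f, h1, h2⟩ ⟨g, h3, h4⟩ => ⟨_, h1.comp' h3 fun _ => h3.mem,
    fun v c => by rw [h4, h2, mulVec_mulVec, det_mul, mul_assoc]⟩, fun {A} ⟨f, h1, h2⟩ => ?_,
    fun ⟨g, h1, h2⟩ ⟨P, f, k, c, h3, h4, h5⟩ => ⟨P, _, k, _, h1.comp' h3 fun _ => h3.mem, h4, by rw [h5, h2]⟩,
    fun a ⟨P, f, k, c, h3, h4, h5⟩ => ?_, fun {v} hE hv l hl => ?_⟩
  · obtain ⟨α, h3, h4⟩ := h1.exists_aut' fun _ => h1.mem
    have := finite_mulAut (le_refl S)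
    refine ⟨_, (sat_sylIn_inn h.pgrp hF).not_dvd_relIndex, ext_iff_mulVec.2 fun v => ?_⟩
    obtain ⟨_, h5, h6⟩ := mem_Inn.1 ((Inn S).pow_relIndex_mem h3)
    obtain ⟨s, c, rfl⟩ := h.mem.1 h5
    have : ∀ n, afn (α ^ n) (u v 0) = u (A ^ n *ᵥ v) 0 := fun n => by
      induction n with
      | zero => simp only [pow_zero, afn_one, one_mulVec]
      | succ n ih => rw [afn_pow _ _ (h.mem' ..), ih, h4 _ (h.mem' ..), h2, mulVec_mulVec, pow_succ', mul_zero]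
    rw [one_mulVec]
    exact (h.eq_iff.1 ((this _).symm.trans ((h6 _ (h.mem' ..)).trans (h.conj ..)))).1
  · have : NeZero p := ⟨(Fact.out : p.Prime).ne_zero⟩
    have k : u 0 (a * k) = u 0 k ^ a.val := by simp [h.pow]
    exact ⟨P, f, a * _, a * c, h3, k ▸ pow_mem h4 _, by rw [k, h3.map_pow h4, h5, h.pow]; simp⟩
  · obtain ⟨f, h1, h2⟩ := L_sl hp hF (h := h) hv hE (N := !![l, 0; 0, l⁻¹]) (by simp [hl])
    obtain ⟨-, g, h3, h4⟩ := L_ext (h := h) hp hF hv h1 h2 rfl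
    obtain ⟨A, s, h5, h6⟩ := h.canon hp h3
    have a := (h4 _ ⟨![1, 0], rfl⟩).trans (h2 _)
    have b := (h4 _ ⟨![0, 1], rfl⟩).trans (h2 _)
    rw [e, h6, mv, e, h.eq_iff] at a b
    exact ⟨A, h5, by simpa using a.1, by
      rw [show A.det = l⁻¹ by simpa [om] using b.2, inv_mul_cancel₀ hl]⟩

omit hF in
theorem moves {f : Ω → Ω} (hf : IsMap F (h.V v) f) (k : ∀ y, f (e u v y) = e u v (M *ᵥ y)) (h0 : M 0 1 ≠ 0)
    (hF : F.IsSaturated p) : EF F u v := by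
  simpa [smul_smul, h0] using (h.dat hp hF).smul (M 0 1)⁻¹ (v := M 0 1 • v)
    ⟨_, f, 1, M 1 1, hf, ⟨![0, 1], by simp [e]⟩, by simpa [e] using k ![0, 1]⟩

theorem le (hF' : F'.IsSaturated p) (hW : ∀ A, WF F u A → WF F' u A) (hE : ∀ v, EF F u v → EF F' u v) : F ≤ F' := by
  refine alperin_le_cr h.pgrp hF F' fun P _ hP _ α hα => (mem_autGroup hP.1).2 ?_
  have hf := isMap_afn hP.1 hα
  rcases h.centric hp hP.1 (isCentric_self hP) with rfl | ⟨v, hv, rfl⟩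
  · exact h.top_le hp hW hf
  have ex : ∀ M : M2 p, M 0 1 = 0 → h.L F v v M → h.L F' v v M := fun M h0 ⟨f, h1, h2⟩ => by
    obtain ⟨-, g, h3, h4⟩ := L_ext (h := h) hp hF hv h1 h2 h0
    exact ⟨g, (h.top_le hp hW h3).mono (h.V_le v), fun y => (h4 _ ⟨y, rfl⟩).trans (h2 y)⟩
  obtain ⟨M, hM⟩ := L_of (h := h) hf fun _ => afn_mem α
  obtain ⟨g, h1, h2⟩ : h.L F' v v M := by
    by_cases h0 : M 0 1 = 0
    · exact ex M h0 ⟨_, hf, hM⟩
    have h1 := h.moves hp hf hM h0 hF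
    have h2 := L.det (h := h) ⟨_, hf, hM⟩ hv
    have h3 : (M * !![1, 0; 0, M.det⁻¹]).det = 1 := by simp [h2]
    have h4 : M * !![1, 0; 0, M.det⁻¹] * !![1, 0; 0, M.det] = M := by simp [mul_assoc, h2, ← one_fin_two]
    exact h4 ▸ (L_sl hp hF' hv (hE v h1) h3).comp
      (ex _ rfl ((L_sl hp hF hv h1 h3).cancel (h4.symm ▸ ⟨_, hf, hM⟩)))
  exact h1.congr (by rintro _ ⟨y, rfl⟩; rw [h2, hM])

/-- At most one line: the system is constrained. -/
theorem real_one (hv : v ≠ 0) (hE : ∀ w, EF F u w → om v w = 0) : F.IsRealizable p := by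
  have key : ∀ R, F.IsEssential p R → ∃ w ≠ 0, EF F u w ∧ R = h.V w := fun R hR => by
    obtain ⟨w, hw, rfl⟩ := (h.centric hp hR.1.1 (isCentric_self hR.1)).resolve_left (essential_lt h.pgrp hF hR).ne
    refine ⟨w, hw, by_contra fun hc => essential_not_le_extAut h.pgrp hF hR fun α hα =>
      Subgroup.subset_closure ⟨hα, fun k => (essential_lt h.pgrp hF hR).not_ge (le_trans ?_ k)⟩, rfl⟩
    have hf := isMap_afn hR.1.1 hα
    obtain ⟨M, hM⟩ := L_of (h := h) hf fun _ => afn_mem α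
    exact (L_ext (h := h) hp hF hw hf hM (by_contra fun h0 => hc (h.moves hp hf hM h0 hF))).1
  by_cases h1 : EF F u v
  · refine isRealizable_of_isNormal h.pgrp hF (Q := h.V v) (isNormal_of_essential h.pgrp hF ?_) fun x hx => ?_
    · rintro R (rfl | hR)
      · refine ⟨h.V_le v, fun g hg _ => ?_⟩
        rintro _ ⟨y, rfl⟩
        obtain ⟨A, s, h2, h3⟩ := h.canon hp hg
        obtain ⟨a, h4⟩ := exists_smul hv (hE _ ((h.dat hp hF).act h2 ((h.dat hp hF).smul (y 0) h1)))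
        exact ⟨![a, _], by rw [e, e, h3, h4]; rfl⟩
      · obtain ⟨w, hw, h2, rfl⟩ := key R hR
        obtain ⟨a, rfl⟩ := exists_smul hv (hE w h2)
        have : h.V v = h.V (a • v) := le_antisymm
          (by rintro _ ⟨y, rfl⟩; exact ⟨![y 0 / a, y 1], by simp [e, smul_smul, left_ne_zero_of_smul hw]⟩)
          (by rintro _ ⟨y, rfl⟩; exact ⟨![y 0 * a, y 1], by simp [e, smul_smul]⟩)
        exact ⟨this.le, fun g _ k x hx => this ▸ k ▸ mem_img_of_mem g (this ▸ hx)⟩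
    · obtain ⟨w, d, rfl⟩ := h.mem.1 hx.1
      have := mul_inv_eq_iff_eq_mul.2 (hx.2 (u v 0) ⟨![1, 0], by simp [e]⟩)
      rw [h.conj, h.eq_iff] at this
      obtain ⟨a, rfl⟩ := exists_smul hv (w := w) (by simpa [hp] using this)
      exact ⟨![a, d], rfl⟩
  · refine isRealizable_of_isNormal h.pgrp hF (isNormal_top_of_no_essential h.pgrp hF fun R hR => ?_)
      (centralizerIn_le _ _)
    obtain ⟨w, hw, h2, -⟩ := key R hR
    obtain ⟨a, rfl⟩ := exists_smul hv (hE w h2)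
    exact h1 (by simpa [smul_smul, left_ne_zero_of_smul hw] using (h.dat hp hF).smul a⁻¹ h2)

end Co

/-- Coordinates from two elements with central commutator. -/
theorem exists_co [Finite S] (hp : (2 : ZMod p) ≠ 0) (hc : Nat.card S ≤ p ^ 3) (he : ∀ x ∈ S, x ^ p = 1)
    {x y : Ω} (hx : x ∈ S) (hy : y ∈ S) (h1 : x⁻¹ * y⁻¹ * x * y ≠ 1) (xz : Commute x (x⁻¹ * y⁻¹ * x * y))
    (yz : Commute y (x⁻¹ * y⁻¹ * x * y)) : ∃ u : V2 p → ZMod p → Ω, Co S u := by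
  have : NeZero p := ⟨(Fact.out : p.Prime).ne_zero⟩
  have hz := mul_mem (mul_mem (mul_mem (inv_mem hx) (inv_mem hy)) hx) hy
  obtain ⟨u, h2, h3⟩ := exists_hs hp (he x hx) (he y hy) (he _ hz) h1 xz yz (by group)
  obtain ⟨R, hR⟩ := h2.exists_co
  refine ⟨u, Subgroup.eq_of_le_of_card_ge (fun s hs => ?_) (hc.trans hR.card.ge) ▸ hR⟩
  obtain ⟨v, c, rfl⟩ := hR.mem.1 hs
  convert h3 (v 0).val (v 1).val ((c - v 0 * v 1) / 2).val ▸
    mul_mem (mul_mem (pow_mem hx _) (pow_mem hy _)) (pow_mem hz _) using 2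
  · simpa using eta v
  · simp; field_simp; ring

section Iso

variable {Ω' : Type*} [Group Ω'] {S' : Subgroup Ω'} {u' : V2 p → ZMod p → Ω'} {E : FusionSystem S'}

theorem Co.gIso (h : Co S u) (h' : Co S' u') :
    ∃ a b, GIso S S' a b ∧ (∀ v c, a (u v c) = u' v c) ∧ ∀ v c, b (u' v c) = u v c := by
  have k := Function.leftInverse_invFun (f := fun x : V2 p × ZMod p => u x.1 x.2)
    fun _ _ e => Prod.ext_iff.2 (h.eq_iff.1 e)
  have k' := Function.leftInverse_invFun (f := fun x : V2 p × ZMod p => u' x.1 x.2)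
    fun _ _ e => Prod.ext_iff.2 (h'.eq_iff.1 e)
  obtain ⟨a, ha⟩ : ∃ a : Ω → Ω', ∀ v c, a (u v c) = u' v c :=
    ⟨(fun x : V2 p × ZMod p => u' x.1 x.2) ∘ Function.invFun fun x : V2 p × ZMod p => u x.1 x.2,
      fun v c => congrArg (fun x : V2 p × ZMod p => u' x.1 x.2) (k (v, c))⟩
  obtain ⟨b, hb⟩ : ∃ b : Ω' → Ω, ∀ v c, b (u' v c) = u v c :=
    ⟨(fun x : V2 p × ZMod p => u x.1 x.2) ∘ Function.invFun fun x : V2 p × ZMod p => u' x.1 x.2,
      fun v c => congrArg (fun x : V2 p × ZMod p => u x.1 x.2) (k' (v, c))⟩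
  refine ⟨a, b, ⟨?_, ?_, ?_, ?_, ?_⟩, ha, hb⟩ <;> simp only [h.mem, h'.mem]
  · rintro _ ⟨v, c, rfl⟩; exact ⟨v, c, (ha v c).symm⟩
  · rintro _ ⟨v, c, rfl⟩; exact ⟨v, c, (hb v c).symm⟩
  · rintro _ ⟨v, c, rfl⟩; rw [ha, hb]
  · rintro _ ⟨v, c, rfl⟩; rw [hb, ha]
  · rintro _ ⟨v, c, rfl⟩ _ ⟨w, d, rfl⟩; rw [h.mul, ha, ha, ha, h'.mul]

omit [Fact p.Prime] in
theorem of_fIso {a : Ω → Ω'} {b : Ω' → Ω} (i : FIso F E a b) (ha : ∀ v c, a (u v c) = u' v c)
    (hb : ∀ v c, b (u' v c) = u v c) : (∀ A, WF F u A → WF E u' A) ∧ ∀ v, EF F u v → EF E u' v :=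
  ⟨fun _ ⟨g, h1, h2⟩ => ⟨_, i.g.imX_top ▸ i.map _ g h1, fun v c => by simp only [Function.comp, hb, h2, ha]⟩,
    fun _ ⟨P, f, k, c, h1, h2, h3⟩ => ⟨_, _, k, c, i.map P f h1, ha 0 k ▸ mem_imX_of_mem a h2, by
      simp only [Function.comp, hb, h3, ha]⟩⟩

end Iso

variable {G : Type*} [Group G] [Finite G] {u' : V2 p → ZMod p → G} (hp : (2 : ZMod p) ≠ 0)

theorem Hs.exists_sylow (h : Hs u') (h4 : ¬ p ^ 4 ∣ Nat.card G) : ∃ T : Sylow p G, Co T u' := by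
  obtain ⟨R, hR⟩ := h.exists_co
  obtain ⟨T, hT⟩ := hR.pgrp.exists_le_sylow
  obtain ⟨n, hn⟩ := IsPGroup.iff_card.1 T.isPGroup'
  refine ⟨T, Subgroup.eq_of_le_of_card_ge hT ?_ ▸ hR⟩
  rw [hR.card, hn]
  exact Nat.pow_le_pow_right (Fact.out : p.Prime).pos (by_contra fun k =>
    h4 ((pow_dvd_pow p (by omega)).trans (hn ▸ (T : Subgroup G).card_subgroup_dvd_card)))

omit [Finite G] in
theorem Co.EF_group {T : Subgroup G} (h : Co T u') (v : V2 p) : EF (groupFusionSystem T) u' v ↔ Fz u' v := by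
  refine ⟨fun ⟨P, f, k, c, h1, h2, h3⟩ => ?_, fun ⟨c, k, e⟩ => ?_⟩
  · obtain ⟨-, -, g, hg⟩ := isMap_group_iff.1 h1
    exact ⟨c, k, (isConj_iff.2 ⟨g, (hg _ h2).symm.trans h3⟩).symm⟩
  · obtain ⟨g, hg⟩ := isConj_iff.1 e.symm
    refine ⟨_, fun x => g * x * g⁻¹, k, c, isMap_group_iff.2 ⟨Subgroup.zpowers_le.2 (h.mem' 0 k), ?_, g,
      fun _ _ => rfl⟩, Subgroup.mem_zpowers _, hg⟩
    rintro _ ⟨n, rfl⟩
    rw [← conj_zpow, hg]
    exact zpow_mem (h.mem' ..) n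

include hp

omit [Finite G] in
theorem Co.WF_group {T : Subgroup G} (h : Co T u') (A : M2 p) :
    WF (groupFusionSystem T) u' A ↔ ∃ g, Nrm u' g A := by
  refine ⟨fun ⟨f, h1, h2⟩ => ?_, fun ⟨g, hg⟩ => h.WF_of hp (f := fun x => g * x * g⁻¹)
    (isMap_group_iff.2 ⟨le_rfl, fun x hx => ?_, g, fun _ _ => rfl⟩) hg⟩
  · obtain ⟨-, -, g, hg⟩ := isMap_group_iff.1 h1
    exact ⟨g, fun v c => ⟨_, (hg _ (h.mem' v c)).symm.trans (h2 v c)⟩⟩
  · obtain ⟨v, c, rfl⟩ := h.mem.1 hx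
    obtain ⟨d, e⟩ := hg v c
    exact e ▸ h.mem' ..

theorem Co.real [Finite S] (h : Co S u) (hF : F.IsSaturated p) {T : Sylow p G} (h' : Co T u')
    (k : (∀ A, WF F u A → WF (groupFusionSystem (T : Subgroup G)) u' A) ∧
      ∀ v, EF F u v → EF (groupFusionSystem (T : Subgroup G)) u' v)
    (k' : (∀ A, WF (groupFusionSystem (T : Subgroup G)) u' A → WF F u A) ∧
      ∀ v, EF (groupFusionSystem (T : Subgroup G)) u' v → EF F u v) : F.IsRealizable p := by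
  obtain ⟨a, b, g, ha, hb⟩ := h.gIso h'
  obtain ⟨E, i⟩ := exists_fIso F g
  have k1 := of_fIso i ha hb
  have k2 := of_fIso i.symm hb ha
  obtain rfl : E = groupFusionSystem (T : Subgroup G) := fs_le_antisymm
    (h'.le hp (i.saturated hF) (isSaturated_group T) (fun A e => k.1 A (k2.1 A e)) fun v e => k.2 v (k2.2 v e))
    (h'.le hp (isSaturated_group T) (i.saturated hF) (fun A e => k1.1 A (k'.1 A e)) fun v e => k1.2 v (k'.2 v e))
  exact isRealizable_of_fIso T i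

omit [Group G] [Finite G] hp in
/-- A property that holds after a change of coordinates holds for a new parametrisation. -/
theorem Co.res (h : Co S u) {P : (M2 p → Prop) → (V2 p → Prop) → Prop} (k : Res P (WF F u) (EF F u)) :
    ∃ B B' : M2 p, B * B' = 1 ∧ Co S (fun v c => u (B *ᵥ v) (B.det * c)) ∧
      P (WF F fun v c => u (B *ᵥ v) (B.det * c)) (EF F fun v c => u (B *ᵥ v) (B.det * c)) := by
  obtain ⟨B, B', hB, k⟩ := k
  refine ⟨B, B', hB, h.chg hB, ?_⟩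
  rwa [WF_chg F u hB, EF_chg F u hB]

end Cfsg.Agent.RV
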