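import Cfsg.Agent.RV.Defs
import Cfsg.Agent.Class.PGL2Dickson

/-! The linear algebra behind the classification of fusion systems on `p_+^{1+2}`. -/

set_option autoImplicit false

namespace Cfsg.Agent.RV

open Matrix

variable {p : ℕ}

abbrev M2 (p : ℕ) := Matrix (Fin 2) (Fin 2) (ZMod p)

abbrev V2 (p : ℕ) := Fin 2 → ZMod p

/-- The outer automizer `W` and the set `E` of vectors over which elements are fused into the centre. -/
structure Dat (W : M2 p → Prop) (E : V2 p → Prop) : Prop where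
  one : W 1
  mul : ∀ {A B}, W A → W B → W (A * B)
  pp : ∀ {A}, W A → ∃ m, ¬ p ∣ m ∧ A ^ m = 1
  act : ∀ {A v}, W A → E v → E (A *ᵥ v)
  smul : ∀ {v} (a : ZMod p), E v → E (a • v)
  tor : ∀ {v}, E v → v ≠ 0 → ∀ l ≠ 0, ∃ A, W A ∧ A *ᵥ v = l • v ∧ A.det * l = 1

/-- `P` holds after a change of coordinates. -/
def Res (P : (M2 p → Prop) → (V2 p → Prop) → Prop) (W : M2 p → Prop) (E : V2 p → Prop) : Prop :=
  ∃ B B' : M2 p, B * B' = 1 ∧ P (fun A => W (B * A * B')) fun v => E (B *ᵥ v)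

theorem Res.trans {P : (M2 p → Prop) → (V2 p → Prop) → Prop} {W : M2 p → Prop} {E : V2 p → Prop}
    (h : Res (Res P) W E) : Res P W E := by
  obtain ⟨B, B', h1, C, C', h2, h⟩ := h
  refine ⟨B * C, C' * B', by rw [mul_assoc, ← mul_assoc C, h2, one_mul, h1], ?_⟩
  simpa only [mul_assoc, mulVec_mulVec] using h

/-- A non-scalar matrix with a double eigenvalue. -/
def Bad (A : M2 p) : Prop :=
  (A 0 0 + A 1 1) ^ 2 = 4 * (A 0 0 * A 1 1 - A 0 1 * A 1 0) ∧ (A 0 1 ≠ 0 ∨ A 1 0 ≠ 0)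

instance (A : M2 p) : Decidable (Bad A) := by unfold Bad; infer_instance

/-- The value of a word. -/
def ev (g : List (M2 p)) (w : List ℕ) : M2 p := (w.map (g.getD · 1)).prod

/-- Three different lines. -/
def Three (E : V2 p → Prop) : Prop :=
  ∃ v w t, E v ∧ E w ∧ E t ∧ om v w ≠ 0 ∧ om v t ≠ 0 ∧ om w t ≠ 0

theorem om_mulVec (B : M2 p) (v w : V2 p) : om (B *ᵥ v) (B *ᵥ w) = B.det * om v w := by
  simp [om, mulVec, dotProduct, det_fin_two]; ring

theorem eta (v : V2 p) : v = ![v 0, v 1] := funext fun i => by fin_cases i <;> rfl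

theorem mv (a b c d x y : ZMod p) : !![a, b; c, d] *ᵥ ![x, y] = ![a * x + b * y, c * x + d * y] :=
  funext fun i => by fin_cases i <;> simp [mulVec, dotProduct]

theorem Three.chg {E : V2 p → Prop} (h : Three E) {B B' : M2 p} (hB : B * B' = 1) :
    Three fun v => E (B *ᵥ v) := by
  obtain ⟨v, w, t, h⟩ := h
  have e : ∀ x y, om x y ≠ 0 → om (B' *ᵥ x) (B' *ᵥ y) ≠ 0 := fun x y h e => h (by
    rw [← one_mulVec x, ← one_mulVec y, ← hB, ← mulVec_mulVec, ← mulVec_mulVec, om_mulVec, e, mul_zero])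
  refine ⟨B' *ᵥ v, B' *ᵥ w, B' *ᵥ t, ?_, ?_, ?_, e _ _ h.2.2.2.1, e _ _ h.2.2.2.2.1, e _ _ h.2.2.2.2.2⟩ <;>
    simp only [mulVec_mulVec, hB, h, one_mulVec]

variable [Fact p.Prime] {W W' : M2 p → Prop} {E E' : V2 p → Prop}

theorem exists_chg {v w : V2 p} (h : om v w ≠ 0) :
    ∃ B B' : M2 p, B * B' = 1 ∧ B *ᵥ ![1, 0] = v ∧ B *ᵥ ![0, 1] = w :=
  ⟨!![v 0, w 0; v 1, w 1], _, mul_nonsing_inv _ (isUnit_iff_ne_zero.2 (by
    simpa [det_fin_two, om, mul_comm] using h)), by rw [mv]; simpa using (eta v).symm,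
    by rw [mv]; simpa using (eta w).symm⟩

theorem exists_om {v : V2 p} (h : v ≠ 0) : ∃ w, om w v = 1 := by
  by_cases h0 : v 0 = 0
  · have : v 1 ≠ 0 := fun h1 => h (by rw [eta v, h0, h1]; simp)
    exact ⟨![(v 1)⁻¹, 0], by simp [om, this]⟩
  · exact ⟨![0, -(v 0)⁻¹], by simp [om, h0]⟩

theorem exists_smul {v w : V2 p} (h : v ≠ 0) (e : om v w = 0) : ∃ a : ZMod p, w = a • v := by
  obtain ⟨s, hs⟩ := exists_om h
  refine ⟨om s w, funext fun i => ?_⟩
  simp only [om] at *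
  fin_cases i <;> simp
  · linear_combination -w 0 * hs - s 0 * e
  · linear_combination -w 1 * hs - s 1 * e

namespace Dat

variable (h : Dat W E)
include h

theorem pow {A : M2 p} (hA : W A) (n : ℕ) : W (A ^ n) := by
  induction n with
  | zero => simpa using h.one
  | succ n ih => exact pow_succ A n ▸ h.mul ih hA

theorem inv {A : M2 p} (hA : W A) : ∃ A', W A' ∧ A' * A = 1 ∧ A * A' = 1 := by
  obtain ⟨m, h1, h2⟩ := h.pp hA
  obtain ⟨n, rfl⟩ := Nat.exists_eq_succ_of_ne_zero (show m ≠ 0 by rintro rfl; simp at h1)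
  exact ⟨_, h.pow hA n, (pow_succ A n).symm.trans h2, (pow_succ' A n).symm.trans h2⟩

theorem left {A B : M2 p} (hA : W A) (hB : W (A * B)) : W B := by
  obtain ⟨A', h1, h2, -⟩ := h.inv hA
  simpa [← mul_assoc, h2] using h.mul h1 hB

theorem right {A B : M2 p} (hA : W A) (hB : W (B * A)) : W B := by
  obtain ⟨A', h1, -, h2⟩ := h.inv hA
  simpa [mul_assoc, h2] using h.mul hB h1

theorem back {A : M2 p} {v : V2 p} (hA : W A) (hv : E (A *ᵥ v)) : E v := by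
  obtain ⟨A', h1, h2, -⟩ := h.inv hA
  simpa only [mulVec_mulVec, h2, one_mulVec] using h.act h1 hv

theorem det_ne {A : M2 p} (hA : W A) : A 0 0 * A 1 1 - A 0 1 * A 1 0 ≠ 0 := by
  obtain ⟨A', -, h2, -⟩ := h.inv hA
  rw [← det_fin_two]
  exact right_ne_zero_of_mul_eq_one ((det_mul _ _).symm.trans (by rw [h2, det_one]))

theorem ev {g : List (M2 p)} (hg : ∀ A ∈ g, W A) (w : List ℕ) : W (ev g w) := by
  induction w with
  | nil => exact h.one
  | cons i w ih =>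
    refine h.mul ?_ ih
    simp only [List.getD_eq_getElem?_getD]
    cases e : g[i]? with
    | none => exact h.one
    | some a => exact hg a (List.mem_of_getElem? e)

theorem chg {B B' : M2 p} (hB : B * B' = 1) :
    Dat (fun A => W (B * A * B')) fun v => E (B *ᵥ v) := by
  have hB' := mul_eq_one_comm.1 hB
  have e : ∀ A C : M2 p, B * (A * C) * B' = B * A * B' * (B * C * B') := fun A C => by
    simp only [mul_assoc]; rw [← mul_assoc B' B, hB', one_mul]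
  refine ⟨by simpa [hB] using h.one, fun a b => e _ _ ▸ h.mul a b, fun {A} a => ?_, fun {A v} a b => ?_,
    fun a b => by simpa [mulVec_smul] using h.smul a b, fun {v} a b l hl => ?_⟩
  · obtain ⟨m, h1, h2⟩ := h.pp a
    have : ∀ n, (B * A * B') ^ n = B * A ^ n * B' := fun n => by
      induction n with
      | zero => simp [hB]
      | succ n ih => rw [pow_succ, ih, pow_succ, e]
    refine ⟨m, h1, ?_⟩
    calc A ^ m = B' * (B * A ^ m * B') * B := by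
          simp only [mul_assoc, hB', mul_one]; rw [← mul_assoc, hB', one_mul]
      _ = 1 := by rw [← this, h2, mul_one, hB']
  · simpa only [mulVec_mulVec, mul_assoc, hB', mul_one] using h.act a b
  · obtain ⟨A, h1, h2, h3⟩ := h.tor a (fun e => b (by
      rw [← one_mulVec v, ← hB', ← mulVec_mulVec, e, mulVec_zero])) l hl
    refine ⟨B' * A * B, by simpa [← mul_assoc, hB, mul_assoc _ B] using h1, ?_, ?_⟩
    · rw [← mulVec_mulVec, ← mulVec_mulVec, h2, mulVec_smul, mulVec_mulVec, hB', one_mulVec]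
    · rw [det_mul, det_mul, mul_right_comm _ _ B.det, ← det_mul, hB', det_one, one_mul, h3]

theorem not_bad (hp : (2 : ZMod p) ≠ 0) {A : M2 p} (hA : W A) : ¬ Bad A := fun ⟨h1, h2⟩ => by
  obtain ⟨m, h3, h4⟩ := h.pp hA
  obtain ⟨n, rfl⟩ := Nat.exists_eq_succ_of_ne_zero (show m ≠ 0 by rintro rfl; simp at h3)
  have h6 : A.det = (A 0 0 + A 1 1) / 2 * ((A 0 0 + A 1 1) / 2) := by
    rw [det_fin_two]; field_simp; linear_combination -h1
  have h5 := (Class.Dickson.pow_succ_eq_of_double A (l := (A 0 0 + A 1 1) / 2)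
    (by rw [trace_fin_two]; field_simp; ring) h6 n).symm.trans h4
  have h7 : ((n + 1 : ℕ) : ZMod p) * ((A 0 0 + A 1 1) / 2) ^ n ≠ 0 :=
    mul_ne_zero ((ZMod.natCast_eq_zero_iff _ _).not.2 h3) (pow_ne_zero _ fun e =>
      h.det_ne hA (by rw [← det_fin_two, h6, e, mul_zero]))
  generalize ((n + 1 : ℕ) : ZMod p) * ((A 0 0 + A 1 1) / 2) ^ n = c at h5 h7
  exact h2.elim (fun e => e (by simpa [h7] using congrFun (congrFun h5 0) 1))
    fun e => e (by simpa [h7] using congrFun (congrFun h5 1) 0)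

theorem diag_mul {a b c d : ZMod p} (h1 : W !![a, 0; 0, b]) (h2 : W !![c, 0; 0, d]) :
    W !![a * c, 0; 0, b * d] := by simpa using h.mul h1 h2

theorem diag_pow {a b : ZMod p} (h1 : W !![a, 0; 0, b]) (n : ℕ) : W !![a ^ n, 0; 0, b ^ n] := by
  induction n with
  | zero => simpa [one_fin_two] using h.one
  | succ n ih => simpa only [pow_succ] using h.diag_mul ih h1

/-- Triangular elements are diagonal. -/
theorem upper (hp : (2 : ZMod p) ≠ 0) {l m : ZMod p} (ha : W !![l, 0; 0, m]) (hl : l ≠ m) {a b d : ZMod p}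
    (hA : W !![a, b; 0, d]) : b = 0 := by
  have h1 : a ≠ 0 ∧ d ≠ 0 := by simpa using h.det_ne hA
  have h2 : l ≠ 0 ∧ m ≠ 0 := by simpa using h.det_ne ha
  have h3 := h.not_bad hp (h.right (B := !![1, b * (m - l) / (m * d); 0, 1]) (h.mul ha hA) (by
    convert h.mul hA ha using 1
    simp [h1, h2, mul_comm]
    field_simp [h1.2, h2.2]; simp))
  simpa [Bad, show (1 + 1 : ZMod p) ^ 2 = 4 by norm_num, h1, h2, sub_eq_zero, hl.symm] using h3

theorem mono (hE : ∀ v, E v ↔ v 0 = 0 ∨ v 1 = 0) {A : M2 p} (hA : W A) :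
    ∃ a b : (ZMod p)ˣ, A = !![(a : ZMod p), 0; 0, b] ∨ A = !![0, (a : ZMod p); b, 0] := by
  have h0 := h.det_ne hA
  have h1 : A 0 0 = 0 ∨ A 1 0 = 0 := by simpa using (hE _).1 (h.act hA ((hE ![1, 0]).2 (by simp)))
  have h2 : A 0 1 = 0 ∨ A 1 1 = 0 := by simpa using (hE _).1 (h.act hA ((hE ![0, 1]).2 (by simp)))
  rw [eta_fin_two A]
  rcases h1 with h1 | h1 <;> rcases h2 with h2 | h2 <;> simp [h1, h2] at h0
  · exact ⟨.mk0 _ h0.1, .mk0 _ h0.2, .inr (by simp [h1, h2])⟩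
  · exact ⟨.mk0 _ h0.1, .mk0 _ h0.2, .inl (by simp [h1, h2])⟩

/-- Two lines: the monomial groups. -/
theorem two (hE : ∀ v, E v ↔ v 0 = 0 ∨ v 1 = 0) : ∃ (D : Subgroup (ZMod p)ˣ) (σ : Prop), (∀ a, a ^ 3 ∈ D) ∧
    Res (fun W E => (∀ A, W A ↔ LW D σ A) ∧ ∀ v, E v ↔ v 0 = 0 ∨ v 1 = 0) W E := by
  have t1 : ∀ l ≠ 0, W !![l, 0; 0, (l ^ 2)⁻¹] := fun l hl => by
    obtain ⟨A, h1, h2, h3⟩ := h.tor ((hE ![1, 0]).2 (by simp)) (by simp) l hl
    obtain ⟨a, b, rfl | rfl⟩ := h.mono hE h1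
    · obtain rfl : a = l := by simpa using congrFun h2 0
      rwa [inv_eq_of_mul_eq_one_left (a := (b : ZMod p)) (b := a ^ 2) (by
        simp at h3; linear_combination h3)]
    · exact absurd (by simpa using (congrFun h2 0).symm) hl
  have t2 : ∀ l ≠ 0, W !![(l ^ 2)⁻¹, 0; 0, l] := fun l hl => by
    obtain ⟨A, h1, h2, h3⟩ := h.tor ((hE ![0, 1]).2 (by simp)) (by simp) l hl
    obtain ⟨a, b, rfl | rfl⟩ := h.mono hE h1
    · obtain rfl : b = l := by simpa using congrFun h2 1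
      rwa [inv_eq_of_mul_eq_one_left (a := (a : ZMod p)) (b := b ^ 2) (by
        simp at h3; linear_combination h3)]
    · exact absurd (by simpa using (congrFun h2 1).symm) hl
  have sc : ∀ l ≠ 0, W !![l, 0; 0, l] := fun l hl => by
    convert h.diag_mul (t1 _ (inv_ne_zero hl)) (t2 _ (inv_ne_zero hl)) using 1
    congr <;> field_simp
  have h1 : W !![1, 0; 0, 1] := one_fin_two (α := ZMod p) ▸ h.one
  let D : Subgroup (ZMod p)ˣ :=
    { carrier := {r | W !![(r : ZMod p), 0; 0, 1]}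
      one_mem' := h1
      mul_mem' := fun a b => by simpa only [mul_one] using! h.diag_mul a b
      inv_mem' := fun {a} b => h.left b (by
        rw [mul_fin_two]; simpa only [mul_zero, zero_mul, add_zero, zero_add, mul_one, Units.mul_inv] using h1) }
  have hD : ∀ a b : (ZMod p)ˣ, a / b ∈ D ↔ W !![(a : ZMod p), 0; 0, b] := fun a b =>
    ⟨fun e => by simpa using h.diag_mul e (sc b b.ne_zero), fun e => by
      simpa only [Units.mul_inv, div_eq_mul_inv] using! h.diag_mul e (sc _ b⁻¹.ne_zero)⟩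
  have h3 : ∀ a : (ZMod p)ˣ, a ^ 3 ∈ D := fun a => by
    simpa [div_inv_eq_mul, pow_succ' a 2] using (hD a (a ^ 2)⁻¹).2 (by simpa using t1 a a.ne_zero)
  by_cases hσ : ∃ a b : (ZMod p)ˣ, W !![0, (a : ZMod p); b, 0]
  · obtain ⟨a, b, hσ⟩ := hσ
    have hB : (!![1, 0; 0, (a / b : ZMod p)] * !![1, 0; 0, (b / a : ZMod p)] : M2 p) = 1 := by simp [one_fin_two]
    have hE' : ∀ v, E (!![1, 0; 0, (a / b : ZMod p)] *ᵥ v) ↔ v 0 = 0 ∨ v 1 = 0 := fun v => by
      rw [eta v, mv, hE]; simp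
    have k1 : ∀ c d : (ZMod p)ˣ, W (!![1, 0; 0, (a / b : ZMod p)] * !![(c : ZMod p), 0; 0, d] * !![1, 0; 0, (b / a : ZMod p)]) ↔
        c / d ∈ D := fun c d => by
      rw [hD]; congr! 1; simp; field_simp
    have k2 : ∀ c d : (ZMod p)ˣ, W (!![1, 0; 0, (a / b : ZMod p)] * !![0, (c : ZMod p); d, 0] * !![1, 0; 0, (b / a : ZMod p)]) ↔
        c / d ∈ D := fun c d => by
      rw [← D.mul_mem_cancel_right (h3 (b / a)), show c / d * (b / a) ^ 3 = (c * b / a ^ 2) / (a * d / b ^ 2) by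
        ext; simp; field_simp, hD, show !![1, 0; 0, (a / b : ZMod p)] * !![0, (c : ZMod p); d, 0] * !![1, 0; 0, (b / a : ZMod p)] =
        !![((c * b / a ^ 2 : (ZMod p)ˣ) : ZMod p), 0; 0, (a * d / b ^ 2 : (ZMod p)ˣ)] * !![0, (a : ZMod p); b, 0] by
          simp; constructor <;> field_simp]
      exact ⟨h.right hσ, (h.mul · hσ)⟩
    refine ⟨D, True, h3, _, _, hB, fun A => ⟨fun hA => ?_, ?_⟩, hE'⟩
    · obtain ⟨c, d, rfl | rfl⟩ := (h.chg hB).mono hE' hA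
      exacts [⟨c, d, (k1 c d).1 hA, .inl rfl⟩, ⟨c, d, (k2 c d).1 hA, .inr ⟨trivial, rfl⟩⟩]
    · rintro ⟨c, d, e, rfl | ⟨-, rfl⟩⟩
      exacts [(k1 c d).2 e, (k2 c d).2 e]
  · refine ⟨D, False, h3, 1, 1, mul_one _, fun A => ?_, by simpa only [one_mulVec] using hE⟩
    simp only [mul_one, one_mul, LW, false_and, or_false, hD]
    refine ⟨fun hA => ?_, by rintro ⟨a, b, h1, rfl⟩; exact h1⟩
    obtain ⟨a, b, rfl | rfl⟩ := h.mono hE hA
    exacts [⟨a, b, hA, rfl⟩, absurd ⟨a, b, hA⟩ hσ]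

theorem nf0' (h3 : Three E) {l m : ZMod p} (hv : E ![1, 0]) (ha : W !![l, 0; 0, m]) :
    Res (fun W E => E ![1, 0] ∧ E ![1, 1] ∧ W !![l, 0; 0, m]) W E := by
  obtain ⟨t, ht, t0, t1⟩ : ∃ t, E t ∧ t 0 ≠ 0 ∧ t 1 ≠ 0 := by
    by_contra! hc
    obtain ⟨v, w, t, a, b, c, d, e, f⟩ := h3
    rcases or_iff_not_imp_left.2 (hc _ a) with a | a <;> rcases or_iff_not_imp_left.2 (hc _ b) with b | b <;>
      rcases or_iff_not_imp_left.2 (hc _ c) with c | c <;> simp [om, a, b, c] at d e f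
  refine ⟨!![t 0, 0; 0, t 1], !![(t 0)⁻¹, 0; 0, (t 1)⁻¹], by simp [one_fin_two, t0, t1], ?_, ?_, ?_⟩
  · simp only [mv]; simpa using h.smul (t 0) hv
  · simp only [mv]; simpa [← eta t] using ht
  · convert ha using 1
    simp
    constructor <;> field_simp

/-- First normal form for three lines. -/
theorem nf0 (h3 : Three E) {l m : ZMod p} (hm : l ^ 2 * m = 1) (hl : l ≠ m) :
    Res (fun W E => E ![1, 0] ∧ E ![1, 1] ∧ W !![l, 0; 0, m]) W E := by
  wlog hv : E ![1, 0] generalizing W E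
  · obtain ⟨v, w, t, hv, -, -, hw, -⟩ := id h3
    obtain ⟨B, B', hB, e, -⟩ := exists_chg hw
    exact Res.trans ⟨B, B', hB, this (h.chg hB) (h3.chg hB) (by simpa only [e] using hv)⟩
  have h0 : l ≠ 0 := by rintro rfl; simp at hm
  obtain ⟨A, h1, h2, h4⟩ := h.tor hv (by simp) l h0
  have a0 : A 0 0 = l := by simpa using congrFun h2 0
  have a1 : A 1 0 = 0 := by simpa using congrFun h2 1
  have a2 : A 1 1 = m := mul_left_cancel₀ (pow_ne_zero 2 h0) (by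
    rw [det_fin_two, a0, a1] at h4; linear_combination h4 - hm)
  have hB : (!![1, A 0 1 / (m - l); 0, 1] * !![1, -(A 0 1 / (m - l)); 0, 1] : M2 p) = 1 := by
    simp [one_fin_two]
  refine Res.trans ⟨_, _, hB, (h.chg hB).nf0' (h3.chg hB) (by simpa only [mv] using (by simpa using hv)) ?_⟩
  convert h1 using 1
  rw [eta_fin_two A, a0, a1, a2]
  simp
  field_simp [sub_ne_zero.2 hl.symm]
  ring

open Class Class.Dickson MatrixGroups in
theorem dickson (hp : (2 : ZMod p) ≠ 0) {l m : ZMod p} (hm : l ^ 2 * m = 1) (hv : E ![1, 1])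
    (ha : W !![l, 0; 0, m]) : l ^ 9 = 1 ∨ l ^ 12 = 1 ∨ l ^ 15 = 1 := by
  by_contra! hc
  have h0 : l ≠ 0 := by rintro rfl; simp at hm
  have m0 : m ≠ 0 := by rintro rfl; simp at hm
  have hk : ∀ k, l ^ k = m ^ k → l ^ (3 * k) = 1 := fun k e => by
    rw [show 3 * k = 2 * k + k by ring, pow_add, e, pow_mul, ← mul_pow, hm, one_pow]
  have h2 : l * l ≠ m * m := fun e => hc.2.1 (by
    rw [show 12 = 3 * 2 * 2 from rfl, pow_mul, hk 2 (by simpa [pow_two] using e), one_pow])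
  have h1 : l ≠ m := fun e => h2 (by rw [e])
  obtain ⟨A, hA, h3, h4⟩ := h.tor hv (by simp) l h0
  have a0 : A 0 0 + A 0 1 = l := by simpa using congrFun h3 0
  have a1 : A 1 0 + A 1 1 = l := by simpa using congrFun h3 1
  have a2 : A 0 0 * A 1 1 - A 0 1 * A 1 0 = l * m := mul_right_cancel₀ h0 (by
    rw [det_fin_two] at h4; linear_combination h4 - hm)
  let H : Subgroup (GL (Fin 2) (ZMod p)) :=
    { carrier := {g | W g}
      one_mem' := h.one
      mul_mem' := h.mul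
      inv_mem' := fun {a} b => h.left b (by simpa using h.one) }
  let ι := algebraMap (ZMod p) (AlgebraicClosure (ZMod p))
  let φ := (pmap ι).comp (H.map Matrix.ProjGenLinGroup.mk).subtype
  let _ := MulAction.compHom (P1 (AlgebraicClosure (ZMod p))) φ
  let a : H.map Matrix.ProjGenLinGroup.mk := ⟨pmk (gl2 l 0 0 m (by simp [h0, m0])), _, ha, rfl⟩
  let b : H.map Matrix.ProjGenLinGroup.mk := ⟨pmk (gl2 _ _ _ _ (h.det_ne hA)), _,
    show W _ by rwa [gl2_coe, ← eta_fin_two], rfl⟩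
  have fx : ∀ {r s : ZMod p} {e} {x}, r ≠ s → pmap ι (pmk (gl2 r 0 0 s e)) • x = x →
      x = lmap ι (inf _) ∨ x = lmap ι (pt 0) := fun {r s e x} hr hx => by
    rw [lmap_inf, lmap_pt, map_zero]
    rcases inf_or_pt x with rfl | ⟨t, rfl⟩
    · exact .inl rfl
    · rw [Matrix.ProjGenLinGroup.map_mk, pmk_smul_pt_eq_pt] at hx
      simp only [Matrix.GeneralLinearGroup.map_apply, gl2_00, gl2_01, gl2_10, gl2_11, map_zero] at hx
      exact .inr (congrArg pt (mul_left_cancel₀ (sub_ne_zero.2 (ι.injective.ne hr))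
        (by linear_combination hx)))
  have hU : ∀ x, (unip x).comap φ = ⊥ := fun x => eq_bot_iff.2 fun g hg => by
    obtain ⟨_, g, hg', rfl⟩ := g
    obtain ⟨k, k1, k2⟩ := h.pp hg'
    have k3 := pow_eq_one_of_mem_unip p hg
    rw [← map_pow, map_eq_one_iff φ ((pmap_injective ι).comp Subtype.val_injective)] at k3
    refine Subgroup.mem_bot.2 (orderOf_eq_one_iff.1 (Nat.eq_one_of_dvd_coprimes
      ((Nat.Prime.coprime_iff_not_dvd Fact.out).2 k1) (orderOf_dvd_of_pow_eq_one k3)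
      (orderOf_dvd_of_pow_eq_one (Subtype.ext ?_))))
    change pmk g ^ k = 1
    rw [← map_pow, show g ^ k = 1 from Units.ext k2, map_one]
  rcases (lineAction φ ((pmap_injective ι).comp Subtype.val_injective)).tame hU with
    ⟨x, hx⟩ | ⟨x, hx⟩ | ⟨k, hk', hx⟩
  · rcases fx h1 (hx a) with rfl | rfl
    · have a3 : A 1 0 = 0 := (pmk_smul_inf_eq_inf _).1 ((pmap_smul_lmap_iff ι _ _ _).1 (hx b))
      have a4 := h.upper hp ha h1 (a := A 0 0) (b := A 0 1) (d := A 1 1) (by rwa [← a3, ← eta_fin_two])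
      rw [a4, show A 0 0 = l by simpa [a4] using a0, show A 1 1 = l by simpa [a3] using a1] at a2
      exact h1 (by simpa [h0] using a2)
    · have a3 : A 0 1 = 0 := by simpa using (pmk_smul_pt_eq_pt _ _ _).1 ((pmap_smul_lmap_iff ι _ _ _).1 (hx b))
      have a4 : A 0 0 = l := by simpa [a3] using a0
      have a5 : A 1 1 = m := by simpa [a3, a4, h0] using a2
      have a6 := h.not_bad hp (h.left (B := !![1, 0; A 1 0 / m, 1]) ha (by
        convert hA using 1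
        rw [eta_fin_two A, a3, a4, a5]
        simp
        field_simp))
      simp [Bad, show (1 + 1 : ZMod p) ^ 2 = 4 by norm_num, m0] at a6
      exact h1 (by rw [← a1, a5, a6, zero_add])
  · obtain ⟨y, hy, hx⟩ := pair_of_card_orbit hx
    have e : φ (a * a) = pmap ι (pmk (gl2 (l * l) 0 0 (m * m) (by simp [h0, m0]))) := by
      change pmap ι (pmk _ * pmk _) = _
      rw [← map_mul]
      congr 2
      ext i j
      fin_cases i <;> fin_cases j <;> simp [gl_mul_apply]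
    have e2 : φ (a * a) • x = x ∧ φ (a * a) • y = y := by
      change (a * a) • x = x ∧ (a * a) • y = y
      rcases hx a with ⟨e1, e2⟩ | ⟨e1, e2⟩ <;> simp [mul_smul, e1, e2]
    rw [e] at e2
    have e3 : A 1 0 = 0 ∧ A 0 1 = 0 ∨ A 0 0 = 0 ∧ A 1 1 = 0 := by
      have k := pmap_smul_lmap_iff ι (b : PGL(2, ZMod p))
      rcases fx h2 e2.1 with rfl | rfl <;> rcases fx h2 e2.2 with rfl | rfl
      · exact absurd rfl hy
      · rcases hx b with ⟨e1, e2⟩ | ⟨e1, e2⟩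
        · exact .inl ⟨(pmk_smul_inf_eq_inf _).1 ((k _ _).1 e1), by simpa using (pmk_smul_pt_eq_pt _ _ _).1 ((k _ _).1 e2)⟩
        · exact .inr ⟨by simpa using (pmk_smul_inf_eq_pt _ _).1 ((k _ _).1 e1),
            by simpa using (pmk_smul_pt_eq_inf _ _).1 ((k _ _).1 e2)⟩
      · rcases hx b with ⟨e2, e1⟩ | ⟨e2, e1⟩
        · exact .inl ⟨(pmk_smul_inf_eq_inf _).1 ((k _ _).1 e1), by simpa using (pmk_smul_pt_eq_pt _ _ _).1 ((k _ _).1 e2)⟩
        · exact .inr ⟨by simpa using (pmk_smul_inf_eq_pt _ _).1 ((k _ _).1 e1),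
            by simpa using (pmk_smul_pt_eq_inf _ _).1 ((k _ _).1 e2)⟩
      · exact absurd rfl hy
    rcases e3 with ⟨e3, e4⟩ | ⟨e3, e4⟩ <;> simp only [e3, e4, add_zero, zero_add] at a0 a1 <;>
      rw [a0, a1, e3] at a2
    · exact h1 (by simpa [h0] using a2)
    · exact h2 (by rw [show m = -l from mul_left_cancel₀ h0 (by linear_combination -a2)]; ring)
  · have e : ∀ k, orderOf a ∣ k → l ^ (3 * k) = 1 := fun k e => hk k (by
      have e1 : pmk (gl2 l 0 0 m _) ^ k = 1 := congrArg Subtype.val (orderOf_dvd_iff_pow_eq_one.1 e)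
      rw [← map_pow, pmk_eq_one_iff] at e1
      have e2 : ∀ k, ((gl2 l 0 0 m (by simp [h0, m0]) ^ k : GL _ _) : M2 p) = !![l ^ k, 0; 0, m ^ k] := fun k => by
        induction k with
        | zero => simp [one_fin_two]
        | succ k ih => rw [pow_succ, Units.val_mul, ih, gl2_coe]; simp [pow_succ]
      exact (congrFun (congrFun (e2 k) 0) 0).symm.trans (e1.2.2.trans (congrFun (congrFun (e2 k) 1) 1)))
    rcases hx a with e1 | e1 | e1
    · exact hc.2.1 (e 4 (e1.mul_right 2))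
    · exact hc.1 (e 3 e1)
    · rcases hk' with ⟨-, rfl⟩ | ⟨-, rfl⟩ | ⟨-, rfl⟩
      exacts [hc.1 (e 3 e1), hc.2.1 (e 4 e1), hc.2.2 (e 5 e1)]

theorem small (hp : p ≠ 2) (hp7 : p ≠ 7) (h3 : Three E) : p = 3 ∨ p = 5 ∨ p = 13 := by
  have hq := (Fact.out : p.Prime)
  obtain ⟨g, hg⟩ := IsCyclic.exists_ofOrder_eq_natCard (α := (ZMod p)ˣ)
  rw [Nat.card_eq_fintype_card, ZMod.card_units] at hg
  have e : ∀ k, (g : ZMod p) ^ k = 1 → p - 1 ∣ k := fun k e =>
    hg ▸ orderOf_dvd_of_pow_eq_one (Units.ext (by simpa using e))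
  have hm : (g : ZMod p) ^ 2 * ((g : ZMod p) ^ 2)⁻¹ = 1 := mul_inv_cancel₀ (pow_ne_zero 2 g.ne_zero)
  have : p - 1 ∣ 9 ∨ p - 1 ∣ 12 ∨ p - 1 ∣ 15 := by
    by_cases hl : (g : ZMod p) = ((g : ZMod p) ^ 2)⁻¹
    · exact .inl ((e 3 (by rw [pow_succ]; nth_rw 2 [hl]; exact hm)).mul_right 3)
    · obtain ⟨B, B', hB, -, h1, h2⟩ := h.nf0 h3 hm hl
      exact ((h.chg hB).dickson (Ring.two_ne_zero (by rwa [ZMod.ringChar_zmod_n])) hm h1 h2).imp (e _)
        (Or.imp (e _) (e _))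
  have h1 : p ≤ 16 := by rcases this with e | e | e <;> have := Nat.le_of_dvd (by norm_num) e <;> omega
  interval_cases p <;> simp_all (config := { decide := true })

end Dat

/-- Normal form for three lines. -/
def NF (m x y : ZMod p) (W : M2 p → Prop) (E : V2 p → Prop) : Prop :=
  E ![1, 0] ∧ E ![1, 1] ∧ W !![2, 0; 0, m] ∧ W !![x, y; y, x]

namespace Dat

variable (h : Dat W E) (h' : Dat W' E') {m x y : ZMod p}
include h

theorem tor' {t : ZMod p} (hp : (2 : ZMod p) ≠ 0) (ht : E ![1, t]) : ∃ b s,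
    ((2 - b * t) * s - b * (2 * t - s * t)) * 2 = 1 ∧ W !![2 - b * t, b; 2 * t - s * t, s] := by
  obtain ⟨A, h1, h2, h3⟩ := h.tor ht (by simp) 2 hp
  have a0 : A 0 0 = 2 - A 0 1 * t := by simpa [eq_sub_iff_add_eq] using congrFun h2 0
  have a1 : A 1 0 = 2 * t - A 1 1 * t := by simpa [eq_sub_iff_add_eq] using congrFun h2 1
  exact ⟨A 0 1, A 1 1, by rw [← a0, ← a1, ← det_fin_two, h3], by rwa [← a0, ← a1, ← eta_fin_two]⟩

theorem nf (h3 : Three E) (L : List (List ℕ)) (c : (2 : ZMod p) ≠ 0 ∧ 2 ^ 2 * m = 1 ∧ 2 ≠ m ∧ ∀ b s : ZMod p,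
    ((2 - b * 1) * s - b * (2 * 1 - s * 1)) * 2 = 1 → !![2 - b * 1, b; 2 * 1 - s * 1, s] = !![x, y; y, x] ∨
      ∃ w ∈ L, Bad (RV.ev [!![2, 0; 0, m], !![2 - b * 1, b; 2 * 1 - s * 1, s]] w)) : Res (NF m x y) W E := by
  obtain ⟨B, B', hB, h1, h2, h4⟩ := h.nf0 h3 c.2.1 c.2.2.1
  obtain ⟨b, s, h5, h6⟩ := (h.chg hB).tor' c.1 h2
  refine ⟨B, B', hB, h1, h2, h4, ((c.2.2.2 b s h5).resolve_right fun ⟨w, _, e⟩ => ?_) ▸ h6⟩
  exact (h.chg hB).not_bad c.1 ((h.chg hB).ev (by simpa only [List.forall_mem_cons] using ⟨h4, h6, by simp⟩) w) e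

include h'

theorem nf_le (n : NF m x y W E) (n' : NF m x y W' E') (L L' : List (List ℕ)) (w₀ : List ℕ) (σ : ZMod p)
    (c : (2 : ZMod p) ≠ 0 ∧ 2 ≠ m ∧ RV.ev [!![2, 0; 0, m], !![x, y; y, x]] w₀ = !![σ, 0; 0, σ] ∧
      (∀ t b s : ZMod p, ((2 - b * t) * s - b * (2 * t - s * t)) * 2 = 1 → t = 0 ∨ t ^ 4 = 1 ∨ ∃ w ∈ L,
        Bad (RV.ev [!![2, 0; 0, m], !![x, y; y, x], !![2 - b * t, b; 2 * t - s * t, s]] w)) ∧
      ∀ a b : ZMod p, (a = 0 ∨ b = 0 ∨ a ^ 4 = b ^ 4 →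
        ∃ w ∈ L', (RV.ev [!![2, 0; 0, m], !![x, y; y, x]] w *ᵥ ![a, b]) 1 = 0) ∧
        (a ≠ 0 → a ^ 4 = b ^ 4 → ∃ i < 12, ∃ j < 4, a = σ ^ i * 2 ^ j ∧ b = σ ^ i * m ^ j)) :
    (∀ A, W A → W' A) ∧ ∀ v, E v → E' v := by
  obtain ⟨c0, c1, c2, c3, c4⟩ := c
  have g := h.ev (g := [!![2, 0; 0, m], !![x, y; y, x]]) (by simpa using n.2.2)
  have g' := h'.ev (g := [!![2, 0; 0, m], !![x, y; y, x]]) (by simpa using n'.2.2)
  have e0 : ∀ a b, E ![a, b] → a = 0 ∨ b = 0 ∨ a ^ 4 = b ^ 4 := fun a b e => or_iff_not_imp_left.2 fun a0 => by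
    obtain ⟨r, s, h5, h6⟩ := h.tor' (t := a⁻¹ * b) c0 (by simpa [a0] using h.smul a⁻¹ e)
    rcases c3 _ r s h5 with e | e | ⟨w, -, e⟩
    · exact .inl (by simpa [a0] using e)
    · exact .inr (by field_simp at e; exact e.symm)
    · exact absurd e (h.not_bad c0 (h.ev (by simpa using ⟨n.2.2.1, n.2.2.2, h6⟩) w))
  have e1 : ∀ v, E v → ∃ w, (RV.ev [!![2, 0; 0, m], !![x, y; y, x]] w *ᵥ v) 1 = 0 := fun v e => by
    rw [eta v] at e ⊢
    exact ((c4 _ _).1 (e0 _ _ e)).imp fun _ => And.right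
  refine ⟨fun A hA => ?_, fun v hv => ?_⟩
  · obtain ⟨w, e⟩ := e1 _ (h.act hA n.1)
    refine h'.left (g' w) ?_
    have k := h.mul (g w) hA
    rw [mulVec_mulVec] at e
    generalize RV.ev _ w * A = C at k e
    have k0 : C 1 0 = 0 := by simpa using e
    rw [eta_fin_two C, k0] at k ⊢
    have k2 := h.upper c0 n.2.2.1 c1 k
    rw [k2] at k ⊢
    have k1 : C 0 0 ≠ 0 ∧ C 1 1 ≠ 0 := by simpa using h.det_ne k
    obtain ⟨i, -, j, -, e1, e2⟩ := (c4 (C 0 0) (C 1 1)).2 k1.1 (by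
      simpa [k1] using e0 (C 0 0) (C 1 1) (by have := h.act k n.2.1; rw [mv] at this; simpa using this))
    rw [e1, e2]
    exact h'.diag_mul (h'.diag_pow (c2 ▸ g' w₀) i) (h'.diag_pow n'.2.2.1 j)
  · obtain ⟨w, e⟩ := e1 _ hv
    refine h'.back (g' w) ?_
    rw [eta (_ *ᵥ _), e]
    simpa using h'.smul _ n'.1

end Dat

section Small

instance : Fact (Nat.Prime 5) := ⟨by norm_num⟩

instance : Fact (Nat.Prime 13) := ⟨by norm_num⟩

theorem Dat.nf3 {W : M2 3 → Prop} {E : V2 3 → Prop} (h : Dat W E) (h3 : Three E) : Res (NF 1 0 2) W E :=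
  h.nf h3 [[0, 1]] (by decide +kernel)

theorem Dat.nf5 {W : M2 5 → Prop} {E : V2 5 → Prop} (h : Dat W E) (h3 : Three E) : Res (NF 4 3 4) W E :=
  h.nf h3 [[0, 1], [0, 0, 0, 1]] (by decide +kernel)

theorem Dat.nf13 {W : M2 13 → Prop} {E : V2 13 → Prop} (h : Dat W E) (h3 : Three E) : Res (NF 10 6 9) W E :=
  h.nf h3 [[1, 1, 1, 0, 1, 0], [1, 0], [0, 1, 0, 0], [0, 0, 1, 0, 1, 1, 1, 0], [0, 0, 1, 0, 0, 1, 0, 0, 1, 1]]
    (by decide +kernel)

theorem Dat.le5 {W W' : M2 5 → Prop} {E E' : V2 5 → Prop} (h : Dat W E) (h' : Dat W' E') (n : NF 4 3 4 W E)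
    (n' : NF 4 3 4 W' E') : (∀ A, W A → W' A) ∧ ∀ v, E v → E' v :=
  h.nf_le h' n n' [] [[], [1], [1, 0], [1, 1], [1, 0, 0], [1, 0, 0, 0]] [0, 0, 1, 0, 0, 1] 3 (by decide +kernel)

theorem Dat.le13 {W W' : M2 13 → Prop} {E E' : V2 13 → Prop} (h : Dat W E) (h' : Dat W' E') (n : NF 10 6 9 W E)
    (n' : NF 10 6 9 W' E') : (∀ A, W A → W' A) ∧ ∀ v, E v → E' v :=
  h.nf_le h' n n' [[0, 2, 0, 0, 0, 2], [0, 2], [0, 0, 2, 0], [0, 1, 1, 2], [2, 1, 0, 0], [0, 1, 2, 1], [1, 2],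
    [0, 1, 0, 0, 0, 2]] [[], [1], [1, 0], [1, 1], [1, 0, 0], [1, 0, 0, 0]] [0, 0, 0, 0, 0, 0, 1, 0, 0, 1] 11
    (by decide +kernel)

theorem Dat.all3 {W : M2 3 → Prop} {E : V2 3 → Prop} (h : Dat W E) (n : NF 1 0 2 W E) (v : V2 3) : E v := by
  have : ∀ a b : ZMod 3, ∃ r : ZMod 3, ∃ w ∈ [[], [0], [1]], ∃ t ∈ [![1, 0], ![1, 1]],
      ![a, b] = r • RV.ev [!![2, 0; 0, 1], !![0, 2; 2, 0]] w *ᵥ t := by decide +kernel
  obtain ⟨r, w, -, t, ht, e⟩ := this (v 0) (v 1)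
  rw [eta v, e]
  refine h.smul r (h.act (h.ev (by simpa using n.2.2) w) ?_)
  simp only [List.mem_cons, List.not_mem_nil, or_false] at ht
  rcases ht with rfl | rfl
  exacts [n.1, n.2.1]

theorem Dat.le3 {W W' : M2 3 → Prop} {E E' : V2 3 → Prop} (h : Dat W E) (h' : Dat W' E') (n : NF 1 0 2 W E)
    (n' : NF 1 0 2 W' E') (H : (∀ A, W A → A 0 0 * A 0 1 = 0) ∨ ∃ A, W' A ∧ A 0 0 * A 0 1 ≠ 0) {A : M2 3}
    (hA : W A) : W' A := by
  have key : ∀ a b c d : ZMod 3, a * d - b * c ≠ 0 → ¬ Bad !![a, b; c, d] → ¬ Bad (!![2, 0; 0, 1] * !![a, b; c, d]) →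
      a * b ≠ 0 ∧ c * d ≠ 0 ∨ a * b = 0 ∧ ∃ w ∈ [[], [0], [1], [0, 1], [1, 0], [0, 1, 0], [1, 0, 1], [0, 1, 0, 1]],
        !![a, b; c, d] = RV.ev [!![2, 0; 0, 1], !![0, 2; 2, 0]] w := by
    decide +kernel
  have key' : ∀ a b c d a' b' c' d' : ZMod 3, a * b * (c * d) * (a * d - b * c) *
      (a' * b' * (c' * d') * (a' * d' - b' * c')) ≠ 0 → ∃ w ∈ [[], [0], [1], [0, 1], [1, 0], [0, 1, 0], [1, 0, 1],
      [0, 1, 0, 1]], !![a, b; c, d] = RV.ev [!![2, 0; 0, 1], !![0, 2; 2, 0]] w * !![a', b'; c', d'] := by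
    decide +kernel
  have g' := h'.ev (g := [!![2, 0; 0, 1], !![0, 2; 2, 0]]) (by simpa using n'.2.2)
  rw [eta_fin_two A] at hA ⊢
  rcases key _ _ _ _ (h.det_ne hA) (h.not_bad (by decide) hA) (h.not_bad (by decide) (h.mul n.2.2.1 hA)) with
    e | ⟨-, w, -, e⟩
  · obtain ⟨C, hC, e'⟩ := H.resolve_left fun f => e.1 (f _ hA)
    rw [eta_fin_two C] at hC
    have e2 := (key _ _ _ _ (h'.det_ne hC) (h'.not_bad (by decide) hC)
      (h'.not_bad (by decide) (h'.mul n'.2.2.1 hC))).resolve_right fun f => e' f.1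
    obtain ⟨w, -, e⟩ := key' _ _ _ _ _ _ _ _ (mul_ne_zero (mul_ne_zero (mul_ne_zero e.1 e.2) (h.det_ne hA))
      (mul_ne_zero (mul_ne_zero e2.1 e2.2) (h'.det_ne hC)))
    exact e ▸ h'.mul (g' w) hC
  · exact e ▸ g' w

end Small

/-- At most one line, two lines or three lines. -/
theorem Dat.cases (h : Dat W E) : (∃ v ≠ 0, ∀ w, E w → om v w = 0) ∨ Three E ∨
    Res (fun _ E => ∀ v, E v ↔ v 0 = 0 ∨ v 1 = 0) W E := by
  by_contra! hc
  obtain ⟨v, hv, h1⟩ := hc.1 ![1, 0] (by simp)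
  obtain ⟨w, hw, h2⟩ := hc.1 v (by rintro rfl; simp [om] at h1)
  obtain ⟨B, B', hB, e1, e2⟩ := exists_chg h2
  refine hc.2.2 ⟨B, B', hB, fun t => ⟨fun ht => by_contra fun hn => hc.2.1 ⟨v, w, _, hv, hw, ht, h2, ?_, ?_⟩, ?_⟩⟩
  · rw [← e1, ← e2, om_mulVec] at h2
    rw [← e1, om_mulVec]
    exact mul_ne_zero (left_ne_zero_of_mul h2) (by simpa [om] using (not_or.1 hn).2)
  · rw [← e1, ← e2, om_mulVec] at h2
    rw [← e2, om_mulVec]
    exact mul_ne_zero (left_ne_zero_of_mul h2) (by simpa [om] using (not_or.1 hn).1)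
  · rintro (e | e)
    · convert h.smul (t 1) hw using 1
      rw [← e2, ← mulVec_smul, eta t, e]; simp
    · convert h.smul (t 0) hv using 1
      rw [← e1, ← mulVec_smul, eta t, e]; simp

end Cfsg.Agent.RV
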