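import Cfsg.Agent.RV.Lin
import Cfsg.Agent.Spor.Th.Final

/-! The Sylow 5-subgroup of the Thompson group. -/

set_option autoImplicit false
set_option maxRecDepth 100000

namespace Cfsg.Agent.RV

namespace M5

open Cfsg.Agent.Comp.BN Cfsg.Agent.Comp.MB Cfsg.Agent.Spor.ThC Cfsg.Agent.Spor.ThC.Mat

/-- Two alphabets side by side. -/
def mix {α : Type} (a b : ℕ → α) (k : ℕ) : α := bif Nat.blt k 5 then a k else b (Nat.sub k 5)

theorem mdl' : q.Mdl (mix t5L L) (mix (subT R t5W) R) :=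
  ⟨q_ok, fun k => by
    unfold mix
    cases Nat.blt k 5
    · exact mdl.rep _
    · exact t5M.rep _⟩

theorem fm' {G : Type} [Group G] {f : G →* q.Gr} {x : ℕ → G} (h : FM f x R) :
    FM f (mix (subT x t5W) x) (mix (subT R t5W) R) :=
  ⟨h.inj, fun k => by
    unfold mix
    cases Nat.blt k 5
    · exact h.map _
    · exact (h.sub t5W).map _⟩

theorem chk1 : q.eqC t5L [1, 0] [] = true := by decide +kernel

theorem chk2 : q.eqC t5L [4, 3] [] = true := by decide +kernel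

theorem chk3 : q.powC t5L [2] 5 = true := by decide +kernel

theorem chk4 : q.eqC t5L [2] [] = false := by decide +kernel

theorem chk5 : q.eqC (mix t5L L) ([13, 10, 9, 8, 15, 11, 8, 14, 10, 13] ++ [1, 2, 0])
    ([1, 2, 2, 0] ++ [4, 1, 2, 2, 2, 2, 0, 3] ++ [2] ++ [13, 10, 9, 8, 15, 11, 8, 14, 10, 13]) = true := by
  decide +kernel

theorem fact5 : Fact (Nat.Prime 5) := ⟨by norm_num⟩

end M5

open Cfsg.Agent.Comp.BN Cfsg.Agent.Comp.MB Cfsg.Agent.Spor.ThC Cfsg.Agent.Spor.ThC.Mat M5 in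
/-- `G = Th`: three lines of the Sylow 5-subgroup are fused into the centre by explicit words. -/
theorem mod5 : ∃ (G : Type) (_ : Group G) (_ : Finite G) (u : V2 5 → ZMod 5 → G),
    Hs u ∧ ¬ 5 ^ 4 ∣ Nat.card G ∧ Three (Fz u) := by
  obtain ⟨f, hf⟩ := exists_fm
  have h5 := hf.sub t5W
  have e1 := h5.eq_iff.2 (t5M.eq chk1)
  have e2 := h5.eq_iff.2 (t5M.eq chk2)
  have e3 : Comp.BN.ev (subT x t5W) [2] ^ 5 = 1 := h5.pow_iff.2 (t5M.pow_eq_one (W := [2]) (n := 5) chk3)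
  have e4 : Comp.BN.ev (subT x t5W) [2] ≠ Comp.BN.ev (subT x t5W) [] := mt h5.eq_iff.1 (t5M.ne chk4)
  have e5 := (fm' hf).eq_iff.2 (mdl'.eq chk5)
  have e6 := h5.eq_iff.2 (t5M.eq h51)
  have e7 := h5.eq_iff.2 (t5M.eq h52)
  have e8 := h5.eq_iff.2 (t5M.eq h53)
  simp only [ev_append] at e5 e6 e7 e8
  generalize Comp.BN.ev (mix (subT x t5W) x) [13, 10, 9, 8, 15, 11, 8, 14, 10, 13] = k at e5
  change k * Comp.BN.ev (subT x t5W) [1, 2, 0] = Comp.BN.ev (subT x t5W) [1, 2, 2, 0] * Comp.BN.ev (subT x t5W) [4, 1, 2, 2, 2, 2, 0, 3] *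
    Comp.BN.ev (subT x t5W) [2] * k at e5
  simp only [ev_cons, ev_nil, mul_one] at e1 e2 e3 e4 e5 e6 e7 e8
  generalize subT x t5W = t at e1 e2 e3 e4 e5 e6 e7 e8
  have f1 : t 0 = (t 1)⁻¹ := eq_inv_of_mul_eq_one_right e1
  have f2 : t 3 = (t 4)⁻¹ := eq_inv_of_mul_eq_one_right e2
  rw [f1, f2] at e5 e6 e8
  rw [f1] at e7
  generalize t 1 = a, t 2 = z, t 4 = b at e3 e4 e5 e6 e7 e8
  have hx : (a * z * a⁻¹) ^ 5 = 1 := by rw [conj_pow, e3]; simp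
  have hy : (b * (a * z * a⁻¹) * b⁻¹) ^ 5 = 1 := by rw [conj_pow, hx]; simp
  obtain ⟨u, hu, e⟩ := @exists_hs 5 _ _ fact5 (show (2 : ZMod 5) ≠ 0 by decide) _ _ _ hx hy e3 e4
    (by simpa only [commute_iff_eq, mul_assoc] using e7) (by simpa only [commute_iff_eq, mul_assoc] using e8)
    (by simpa only [mul_assoc] using e6)
  have ez : u 0 2 = z := by
    have := e 0 0 1
    rw [show (0 : Fin 2 → ZMod 5) = ![((0 : ℕ) : ZMod 5), ((0 : ℕ) : ZMod 5)] by decide]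
    simpa using this
  have cx : IsConj (a * z * a⁻¹) z := (isConj_iff.2 ⟨a, rfl⟩).symm
  have k1 : ∀ i j l : ℕ, IsConj ((a * z * a⁻¹) ^ i * (b * (a * z * a⁻¹) * b⁻¹) ^ j * z ^ l) z →
      IsConj (u ![i, j] (i * j + 2 * l)) (u 0 2) := fun i j l h => by rwa [e, ez]
  refine ⟨Cfsg.Spor.Th, inferInstance, final.1, u, hu, by rw [final.2.1]; norm_num,
    ![((1 : ℕ) : ZMod 5), ((0 : ℕ) : ZMod 5)], ![((0 : ℕ) : ZMod 5), ((1 : ℕ) : ZMod 5)],
    ![((2 : ℕ) : ZMod 5), ((4 : ℕ) : ZMod 5)], ⟨_, 2, k1 1 0 0 ?_⟩, ⟨_, 2, k1 0 1 0 ?_⟩, ⟨_, 2, k1 2 4 1 ?_⟩,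
    by decide, by decide, by decide⟩
  · simpa only [pow_one, pow_zero, mul_one] using cx
  · simp only [pow_one, pow_zero, mul_one, one_mul]
    exact (isConj_iff.2 ⟨b, rfl⟩).symm.trans cx
  · refine (isConj_iff.2 ⟨k, ?_⟩).symm.trans cx
    rw [conj_pow, conj_pow, conj_pow, mul_inv_eq_iff_eq_mul, mul_assoc a z, e5]
    simp only [pow_succ, pow_zero, one_mul, mul_assoc]

end Cfsg.Agent.RV
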