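import Cfsg.Agent.RV.Defs
import Cfsg.Agent.Fus.Heis

/-! The groups between `SL₃(p)` and `GL₃(p) ⋊ ⟨inverse transpose⟩`. -/

set_option autoImplicit false

namespace Cfsg.Agent.RV

open Matrix Subgroup

namespace ML

variable {K : Type} [Field K]

/-- The transpose along the antidiagonal. -/
def th (m : Matrix (Fin 3) (Fin 3) K) : Matrix (Fin 3) (Fin 3) K := (m.submatrix Fin.revPerm Fin.revPerm)ᵀ

theorem th_mul (m n : Matrix (Fin 3) (Fin 3) K) : th (m * n) = th n * th m := by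
  rw [th, th, th, ← transpose_mul, submatrix_mul_equiv]

theorem th_one : th (1 : Matrix (Fin 3) (Fin 3) K) = 1 := by simp [th]

/-- The graph automorphism as a map. -/
def tf (g : GL (Fin 3) K) : GL (Fin 3) K :=
  ⟨th (g⁻¹).val, th g.val, by rw [← th_mul, Units.mul_inv, th_one], by rw [← th_mul, Units.inv_mul, th_one]⟩

theorem tf_tf (g : GL (Fin 3) K) : tf (tf g) = g := by
  ext i j
  simp [tf, th]

/-- The graph automorphism. -/
def ta : MulAut (GL (Fin 3) K) :=
  ⟨⟨tf, tf, tf_tf, tf_tf⟩, fun a b => Units.ext (by simp only [tf, _root_.mul_inv_rev, Units.val_mul, th_mul])⟩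

theorem ta_cases (s : zpowers (ta (K := K))) : s.1 = 1 ∨ s.1 = ta := by
  have h : (ta (K := K)) ^ (2 : ℤ) = 1 := (zpow_two _).trans (MulEquiv.ext tf_tf)
  obtain ⟨_, k, rfl⟩ := s
  rcases Int.even_or_odd' k with ⟨j, rfl | rfl⟩
  · exact Or.inl (by simp only [_root_.zpow_mul, h, _root_.one_zpow])
  · exact Or.inr (by simp only [_root_.zpow_add, _root_.zpow_mul, h, _root_.one_zpow, zpow_one, one_mul])

theorem det_ta (g : GL (Fin 3) K) : GeneralLinearGroup.det (ta g) = (GeneralLinearGroup.det g)⁻¹ := by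
  rw [← map_inv]
  exact Units.ext ((det_transpose _).trans (det_submatrix_equiv_self _ _))

/-- The unitriangular matrices. -/
def U (v : Fin 2 → K) (c : K) : GL (Fin 3) K :=
  GeneralLinearGroup.mkOfDetNeZero !![1, v 0, (c + v 0 * v 1) / 2; 0, 1, v 1; 0, 0, 1] (by simp [det_fin_three])

theorem U_val (v : Fin 2 → K) (c : K) :
    (U v c).val = !![1, v 0, (c + v 0 * v 1) / 2; 0, 1, v 1; 0, 0, 1] := rfl

theorem det_U (v : Fin 2 → K) (c : K) : GeneralLinearGroup.det (U v c) = 1 :=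
  Units.ext (by simp [U_val, det_fin_three])

theorem diag_of (h2 : (2 : K) ≠ 0) {g : GL (Fin 3) K} {A : Matrix (Fin 2) (Fin 2) K}
    (h : ∀ v c, ∃ d, g * U v c * g⁻¹ = U (A *ᵥ v) d) :
    ∃ a b t : Kˣ, A = !![(a : K), 0; 0, b] ∧ GeneralLinearGroup.det g = a / b * t ^ 3 := by
  have k : ∀ v c, ∃ d, ∀ i j, (g.val * (U v c).val) i j = ((U (A *ᵥ v) d).val * g.val) i j := fun v c =>
    (h v c).imp fun d e i j => by rw [← Units.val_mul, ← Units.val_mul, ← e, inv_mul_cancel_right]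
  obtain ⟨d, h0⟩ := k 0 2
  obtain ⟨_, h1⟩ := k ![1, 0] 0
  obtain ⟨_, h3⟩ := k ![0, 1] 0
  have e1 := h0 1 2
  have e2 := h0 2 2
  have e3 := h0 0 1
  have e4 := h0 0 2
  have e5 := h1 0 1
  have e6 := h1 1 2
  have e7 := h3 0 1
  have e8 := h3 1 2
  have hd := g.det_ne_zero
  simp [U_val, mul_apply, Fin.sum_univ_three, h2] at e1 e2 e3 e4 e5 e6 e7 e8
  rw [det_fin_three, e1, e2] at hd
  have h4 : g.val 0 0 ≠ 0 := fun e => hd (by simp [e])
  have h5 : g.val 2 1 = 0 := e3.resolve_left fun e => h4 (by rw [e] at e4; simpa using e4)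
  have h6 : g.val 1 1 ≠ 0 := fun e => hd (by simp [e, h5])
  have h7 : g.val 2 2 ≠ 0 := fun e => hd (by simp [e, h5])
  refine ⟨Units.mk0 _ (div_ne_zero h4 h6), Units.mk0 _ (div_ne_zero h6 h7), Units.mk0 _ h6, ?_, Units.ext ?_⟩
  · ext i j
    rw [h5, mul_zero, add_zero] at e5 e7
    rw [add_comm, add_right_inj] at e5 e8
    fin_cases i <;> fin_cases j
    · simpa [eq_div_iff h6] using e5.symm
    · simpa [h6] using e7
    · simpa [h7] using e6
    · simpa [eq_div_iff h7] using e8.symm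
  · simp [det_fin_three, e1, e2, h5]
    field_simp

variable {p : ℕ} [Fact p.Prime] (h2 : (2 : ZMod p) ≠ 0)
include h2

theorem hs : Hs (U (K := ZMod p)) where
  mul v c w d := by
    ext i j
    fin_cases i <;> fin_cases j <;> simp [U_val, mul_apply, Fin.sum_univ_three, om, add_comm]
    field_simp
    ring
  inj v c e := by
    have h0 : v 0 = 0 := by simpa [U_val] using congrArg (fun g : GL (Fin 3) (ZMod p) => g.val 0 1) e
    have h1 : v 1 = 0 := by simpa [U_val] using congrArg (fun g : GL (Fin 3) (ZMod p) => g.val 1 2) e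
    exact ⟨funext fun i => by fin_cases i <;> assumption,
      by simpa [U_val, h0, h2] using congrArg (fun g : GL (Fin 3) (ZMod p) => g.val 0 2) e⟩

theorem ta_U (v : Fin 2 → ZMod p) (c : ZMod p) : ta (U v c) = U (!![0, -1; -1, 0] *ᵥ v) (-c) := by
  refine Units.ext (show th (U v c)⁻¹.val = _ from ?_)
  rw [(hs h2).inv]
  ext i j
  fin_cases i <;> fin_cases j <;> simp [U_val, th, dotProduct, mul_comm, Fin.rev]

omit h2 in
theorem exists_diag (a b : (ZMod p)ˣ) : ∃ g : GL (Fin 3) (ZMod p),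
    GeneralLinearGroup.det g = a / b * b ^ 3 ∧
      ∀ v c, g * U v c * g⁻¹ = U (!![(a : ZMod p), 0; 0, b] *ᵥ v) (a * b * c) := by
  refine ⟨GeneralLinearGroup.mkOfDetNeZero !![(a : ZMod p) * b, 0, 0; 0, b, 0; 0, 0, 1]
    (by simp [det_fin_three]), Units.ext ?_, fun v c => ?_⟩
  · simp [det_fin_three]
    field_simp
  rw [mul_inv_eq_iff_eq_mul]
  ext i j
  fin_cases i <;> fin_cases j <;> simp [U_val, mul_apply, Fin.sum_univ_three, dotProduct] <;> ring

omit h2 in
theorem sq_of_conj {g : GL (Fin 3) (ZMod p)} {v : Fin 2 → ZMod p} {c k : ZMod p}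
    (h : g * U v c * g⁻¹ = U 0 k) : v 0 * v 1 = 0 := by
  have h1 : ((U 0 k).val - 1) * ((U 0 k).val - 1) = 0 := by
    ext i j
    fin_cases i <;> fin_cases j <;> simp [U_val, mul_apply, Fin.sum_univ_three, one_apply]
  have h3 : (U v c).val - 1 = (g⁻¹).val * ((U 0 k).val - 1) * g.val := by
    rw [← h]
    simp [mul_sub, sub_mul, mul_assoc]
  have h4 : ((U v c).val - 1) * ((U v c).val - 1) = 0 := by
    rw [h3, mul_assoc, mul_assoc, mul_assoc, Units.mul_inv_cancel_left, ← mul_assoc (_ - 1), h1]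
    simp
  simpa [U_val, mul_apply, Fin.sum_univ_three, one_apply] using congrFun (congrFun h4 0) 2

theorem exists_conj {v : Fin 2 → ZMod p} (h : v 0 = 0 ∨ v 1 = 0) : ∃ (g : GL (Fin 3) (ZMod p)) (k : ZMod p),
    GeneralLinearGroup.det g = 1 ∧ g * U v 0 * g⁻¹ = U 0 k := by
  rcases h with h | h
  · refine ⟨GeneralLinearGroup.mkOfDetNeZero !![0, 1, 0; -1, 0, 0; 0, 0, 1] (by simp [det_fin_three]),
      2 * v 1, Units.ext (by simp [det_fin_three]), ?_⟩
    rw [mul_inv_eq_iff_eq_mul]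
    ext i j
    fin_cases i <;> fin_cases j <;> simp [U_val, mul_apply, Fin.sum_univ_three, h, h2]
  · refine ⟨GeneralLinearGroup.mkOfDetNeZero !![1, 0, 0; 0, 0, -1; 0, 1, 0] (by simp [det_fin_three]),
      2 * v 0, Units.ext (by simp [det_fin_three]), ?_⟩
    rw [mul_inv_eq_iff_eq_mul]
    ext i j
    fin_cases i <;> fin_cases j <;> simp [U_val, mul_apply, Fin.sum_univ_three, h, h2]

omit h2

open SemidirectProduct

/-- The extension of `GL₃` by the graph automorphism. -/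
abbrev Ga (K : Type) [Field K] := GL (Fin 3) K ⋊[(zpowers ta).subtype] zpowers (ta (K := K))

theorem det_mem {D : Subgroup Kˣ} (s : zpowers (ta (K := K))) {g : GL (Fin 3) K}
    (hg : GeneralLinearGroup.det g ∈ D) : GeneralLinearGroup.det (s.1 g) ∈ D := by
  rcases ta_cases s with e | e <;> rw [e]
  exacts [hg, det_ta g ▸ inv_mem hg]

/-- The group attached to `D` and `σ`. -/
def Gr (D : Subgroup Kˣ) (σ : Prop) : Subgroup (Ga K) where
  carrier := {x | GeneralLinearGroup.det x.left ∈ D ∧ (x.right = 1 ∨ σ)}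
  one_mem' := ⟨by simp, Or.inl rfl⟩
  mul_mem' := fun {a b} ha hb => ⟨by rw [mul_left, map_mul]; exact mul_mem ha.1 (det_mem _ hb.1),
    ha.2.elim (fun e => hb.2.imp_left fun e' => by rw [mul_right, e, e', one_mul]) Or.inr⟩
  inv_mem' := fun {a} ha => ⟨by rw [inv_left]; exact det_mem a.right⁻¹ (by rw [map_inv]; exact inv_mem ha.1),
    ha.2.imp_left fun e => by rw [inv_right, e, inv_one]⟩

/-- The Heisenberg group inside `Gr`. -/
def uu (D : Subgroup Kˣ) (σ : Prop) (v : Fin 2 → K) (c : K) : Gr D σ :=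
  ⟨inl (U v c), by rw [left_inl, det_U]; exact one_mem _, Or.inl rfl⟩

theorem hc {D : Subgroup Kˣ} {σ : Prop} (g : Gr D σ) (v : Fin 2 → K) (c : K) (w : Fin 2 → K) (d : K) :
    g * uu D σ v c * g⁻¹ = uu D σ w d ↔ g.1.left * g.1.right.1 (U v c) * g.1.left⁻¹ = U w d := by
  rw [mul_inv_eq_iff_eq_mul, mul_inv_eq_iff_eq_mul, Subtype.ext_iff, SemidirectProduct.ext_iff]
  simp [uu]

end ML

open ML SemidirectProduct in
theorem modL (p : ℕ) [Fact p.Prime] (hp : p ≠ 2) (D : Subgroup (ZMod p)ˣ) (hD : ∀ a, a ^ 3 ∈ D)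
    (σ : Prop) : ∃ (G : Type) (_ : Group G) (_ : Finite G) (u : (Fin 2 → ZMod p) → ZMod p → G),
      Hs u ∧ ¬ p ^ 4 ∣ Nat.card G ∧ (∀ A, (∃ g, Nrm u g A) ↔ LW D σ A) ∧
        ∀ v, Fz u v ↔ v 0 = 0 ∨ v 1 = 0 := by
  have hpp : p.Prime := Fact.out
  have h2 : (2 : ZMod p) ≠ 0 := fun e => hp ((Nat.prime_dvd_prime_iff_eq hpp Nat.prime_two).1
    ((ZMod.natCast_eq_zero_iff 2 p).1 e))
  have : Finite (Ga (ZMod p)) := Finite.of_equiv _ equivProd.symm
  refine ⟨Gr D σ, _, inferInstance, uu D σ, ⟨fun v c w d => Subtype.ext ((map_mul inl _ _).symm.trans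
    (congrArg inl ((hs h2).mul v c w d))), fun v c e => (hs h2).inj v c
    (congrArg (fun x : Gr D σ => x.1.left) e)⟩, fun h => ?_, fun A => ⟨?_, ?_⟩, fun v => ⟨?_, fun h => ?_⟩⟩
  · have h1 := h.trans (card_subgroup_dvd_card _)
    rw [SemidirectProduct.card] at h1
    have h3 : Nat.card (zpowers (ta (K := ZMod p))) ∣ 2 := by
      rw [Nat.card_zpowers]
      exact orderOf_dvd_of_pow_eq_one ((pow_two _).trans (MulEquiv.ext tf_tf))
    have h4 := (((Nat.coprime_primes hpp Nat.prime_two).2 hp).pow_left 4).dvd_of_dvd_mul_right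
      (h1.trans (mul_dvd_mul_left _ h3))
    obtain ⟨P⟩ : Nonempty (Sylow p (GL (Fin 3) (ZMod p))) := inferInstance
    have h5 := P.pow_dvd_card_of_pow_dvd_card h4
    rw [Class.card_sylow_GL, ZMod.card, Nat.pow_dvd_pow_iff_le_right hpp.one_lt] at h5
    omega
  · rintro ⟨g, hg⟩
    rcases ta_cases g.1.right with e | e
    · obtain ⟨a, b, t, e1, e2⟩ := diag_of h2 (g := g.1.left) (A := A) fun v c =>
        (hg v c).imp fun d h => by simpa [e] using (hc g _ _ _ _).1 h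
      exact ⟨a, b, (mul_mem_cancel_right (hD t)).1 (e2 ▸ g.2.1), Or.inl e1⟩
    · have hS : (!![0, -1; -1, 0] : Matrix (Fin 2) (Fin 2) (ZMod p)) * !![0, -1; -1, 0] = 1 := by
        simp [one_fin_two]
      obtain ⟨a, b, t, e1, e2⟩ := diag_of h2 (g := g.1.left) (A := A * !![0, -1; -1, 0]) fun v c =>
        (hg (!![0, -1; -1, 0] *ᵥ v) (-c)).imp fun d h => by
          have := (hc g _ _ _ _).1 h
          rwa [e, ta_U h2, mulVec_mulVec, mulVec_mulVec, hS, one_mulVec, neg_neg] at this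
      refine ⟨-a, -b, by rw [neg_div_neg_eq]; exact (mul_mem_cancel_right (hD t)).1 (e2 ▸ g.2.1),
        Or.inr ⟨g.2.2.resolve_left fun e' => ?_, ?_⟩⟩
      · have := ta_U h2 ![1, 0] 0
        rw [← e, e'] at this
        simpa [mulVec, dotProduct] using congrFun ((hs h2).eq_iff.1 this).1 0
      · rw [← mul_one A, ← hS, ← mul_assoc, e1]
        simp
  · rintro ⟨a, b, h, rfl | ⟨h1, rfl⟩⟩
    · obtain ⟨g, e1, e2⟩ := exists_diag a b
      exact ⟨⟨inl g, by rw [left_inl, e1]; exact mul_mem h (hD b), Or.inl rfl⟩,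
        fun v c => ⟨_, (hc _ _ _ _ _).2 (e2 v c)⟩⟩
    · obtain ⟨g, e1, e2⟩ := exists_diag (-a) (-b)
      refine ⟨⟨⟨g, ⟨ta, mem_zpowers _⟩⟩, by rw [e1, neg_div_neg_eq]; exact mul_mem h (hD _), Or.inr h1⟩,
        fun v c => ⟨_, (hc _ _ _ _ _).2 ((congrArg (g * · * g⁻¹) (ta_U h2 v c)).trans ((e2 _ _).trans
          (congrArg (U · _) ?_)))⟩⟩
      rw [mulVec_mulVec]
      simp
  · rintro ⟨c, k, h⟩
    obtain ⟨g, hg⟩ := isConj_iff.1 h
    have := (hc g _ _ _ _).1 hg
    rcases ta_cases g.1.right with e | e <;> rw [e] at this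
    · exact mul_eq_zero.1 (sq_of_conj this)
    · rw [ta_U h2] at this
      simpa [mulVec, dotProduct, or_comm] using sq_of_conj this
  · obtain ⟨g, k, e1, e2⟩ := exists_conj h2 h
    exact ⟨0, k, isConj_iff.2 ⟨⟨inl g, by rw [left_inl, e1]; exact one_mem _, Or.inl rfl⟩,
      (hc _ _ _ _ _).2 e2⟩⟩

end Cfsg.Agent.RV
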