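import Cfsg.Agent.Mon.CntM
import Cfsg.Agent.Mon.Design
import Cfsg.Agent.FT.DadeBasic
import Cfsg.Agent.RV.Mon13A

/-! An element of class 13B of the Monster and the involutions around it. -/

set_option autoImplicit false

namespace Cfsg.Agent.RV

open Subgroup

namespace M13

section Abs

variable {C K : Type*} [Group C] [Finite C] [Group K] {π : C →* K}

theorem lift13 (hs : Function.Surjective π) (hk : Nat.card π.ker = 2 ^ 25) {a : K} (ha : a ^ 13 = 1) :
    ∃ x, π x = a ∧ x ^ 13 = 1 := by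
  obtain ⟨h, rfl⟩ := hs a
  have h1 : (h ^ 13) ^ 2 ^ 25 = 1 := by
    have := pow_card_eq_one' (x := (⟨h ^ 13, by rw [MonoidHom.mem_ker, map_pow, ha]⟩ : π.ker))
    rw [hk] at this
    exact congrArg Subtype.val this
  refine ⟨h ^ 2 ^ 36, ?_, ?_⟩
  · rw [map_pow, show 2 ^ 36 = 13 * 5286113595 + 1 by norm_num, pow_succ, pow_mul, ha, one_pow, one_mul]
  · rw [← pow_mul, show 2 ^ 36 * 13 = 13 * 2 ^ 25 * 2 ^ 11 by norm_num, pow_mul, pow_mul, h1, one_pow]

theorem lift_conj (hs : Function.Surjective π) (hk : Nat.card π.ker = 2 ^ 25) {x y : C} (hx : x ^ 13 = 1)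
    (hy : y ^ 13 = 1) {g : K} (e : g * π x = π y * g) : ∃ h, π h = g ∧ h * x * h⁻¹ = y := by
  obtain ⟨h, rfl⟩ := hs g
  obtain ⟨q, hq, c, hc, e1, e2⟩ := FT.Dade.exists_conj_centralizer_coset π.ker y
    (by rw [normalizer_eq_top]; trivial)
    (hk ▸ Nat.Coprime.coprime_dvd_left (orderOf_dvd_of_pow_eq_one hy) (by norm_num)) (h * x * h⁻¹ * y⁻¹)
    (by rw [MonoidHom.mem_ker]; simp [e])
  rw [inv_mul_cancel_right] at e2
  have h1 : c ^ 13 = 1 := by
    have : (c * y) ^ 13 = 1 := by rw [← e2, conj_pow, conj_pow, hx]; simp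
    rwa [Commute.mul_pow e1, hy, mul_one] at this
  have h2 : c = 1 := orderOf_eq_one_iff.1 (Nat.eq_one_of_dvd_coprimes (show Nat.Coprime 13 (2 ^ 25) by norm_num)
    (orderOf_dvd_of_pow_eq_one h1) (hk ▸ π.ker.orderOf_dvd_natCard hc))
  refine ⟨q * h, by rw [map_mul, (MonoidHom.mem_ker.1 hq), one_mul], ?_⟩
  rw [← one_mul y, ← h2, ← e2]; group

theorem exists_cfg (hs : Function.Surjective π) (hk : Nat.card π.ker = 2 ^ 25) {z x : C} (zc : ∀ g, g * z = z * g)
    (z2 : z * z = 1) (hx : x ^ 13 = 1) (CQ : ∀ q, π q = 1 → q * x = x * q → q = 1 ∨ q = z)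
    (NI : ∀ s, s * s = 1 → s * x = x * s → π s = 1) {i j r s : K} (ix' : i * π x = π x * i)
    (jx' : j * π x = π x * j) (rx' : r * π x = π x * r) (sx' : π x * s * π x = s) (ii : i * i = 1) (jj : j * j = 1) (kk : i * j * (i * j) = 1)
    (ss : s * s = 1) (si : s * i = i * s) (sj : s * j = j * s) (ri : r * i = j * r) (rj : r * j = i * j * r)
    (i1 : i ≠ 1) (j1 : j ≠ 1) (k1 : i * j ≠ 1) : ∃ i j r t : C,
    i * x = x * i ∧ j * x = x * j ∧ r * x = x * r ∧ i * i = z ∧ j * j = z ∧ i * j * (i * j) = z ∧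
    (r * i = j * r ∨ r * i = j * z * r) ∧ (r * j = i * j * r ∨ r * j = i * j * z * r) ∧
    t * t = 1 ∧ t * x * t⁻¹ = x⁻¹ ∧ (t * i = i * t ∨ t * i = i * z * t) ∧ (t * j = j * t ∨ t * j = j * z * t) := by
  obtain ⟨i, rfl, ix⟩ := lift_conj hs hk hx hx ix'
  obtain ⟨j, rfl, jx⟩ := lift_conj hs hk hx hx jx'
  obtain ⟨r, rfl, rx⟩ := lift_conj hs hk hx hx rx'
  obtain ⟨s, rfl, sx⟩ := lift_conj hs hk (y := x⁻¹) hx (by rw [inv_pow, hx, inv_one]) (g := s)
    (by rw [map_inv, eq_inv_mul_iff_mul_eq, ← mul_assoc, sx'])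
  have E : ∀ {a b : C}, π a = π b → a * x * a⁻¹ = b * x * b⁻¹ → a = b ∨ a = b * z := fun {a b} h1 h2 => by
    rcases CQ (b⁻¹ * a) (by rw [map_mul, map_inv, h1, inv_mul_cancel])
      (by rw [mul_assoc, mul_inv_eq_iff_eq_mul.1 h2]; group) with h | h
    · exact Or.inl (inv_mul_eq_one.1 h).symm
    · exact Or.inr (inv_mul_eq_iff_eq_mul.1 h)
  have E' : ∀ {a b c : C}, π a = π (b * c) → a * x * a⁻¹ = b * c * x * (b * c)⁻¹ →
      a = b * c ∨ a = b * z * c := fun h1 h2 =>
    (E h1 h2).imp_right fun h => by rw [h, mul_assoc, zc, mul_assoc]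
  have m : ∀ {a b u v : C}, b * x * b⁻¹ = u → a * u * a⁻¹ = v → a * b * x * (a * b)⁻¹ = v := fun h1 h2 => by
    rw [← h2, ← h1]; group
  have n : ∀ {a u : C}, a * x * a⁻¹ = u → a * x⁻¹ * a⁻¹ = u⁻¹ := fun h => by rw [← h]; group
  have sq : ∀ {a : C}, a * x * a⁻¹ = x → π a * π a = 1 → π a ≠ 1 → a * a = z := fun {a} h1 h2 h3 =>
    ((E (b := 1) (by rw [map_mul, h2, map_one]) (by rw [m h1 h1]; group)).resolve_left
      fun h => h3 (NI a h (mul_inv_eq_iff_eq_mul.1 h1))).trans (one_mul z)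
  have ei := sq ix ii i1
  have ej := sq jx jj j1
  have ek := sq (m jx ix) (by rw [map_mul, kk]) (by rwa [map_mul])
  have ij : π i * π j = π j * π i := by
    rw [← inv_eq_of_mul_eq_one_right kk, mul_inv_rev, inv_eq_of_mul_eq_one_right ii, inv_eq_of_mul_eq_one_right jj]
  have fin : ∀ t : C, t * x * t⁻¹ = x⁻¹ → π t * π i = π i * π t → π t * π j = π j * π t →
      (t * i = i * t ∨ t * i = i * z * t) ∧ (t * j = j * t ∨ t * j = j * z * t) := fun t h1 h2 h3 =>
    ⟨E' (by rw [map_mul, map_mul, h2]) ((m ix h1).trans (m h1 (n ix)).symm),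
      E' (by rw [map_mul, map_mul, h3]) ((m jx h1).trans (m h1 (n jx)).symm)⟩
  obtain ⟨t, t1, t2, t3, t4⟩ : ∃ t : C, t * t = 1 ∧ t * x * t⁻¹ = x⁻¹ ∧ π t * π i = π i * π t ∧
      π t * π j = π j * π t := by
    have k : ∀ {a : C}, a * a = z → s * s = z → s * a = a * s → s * a * (s * a) = 1 := fun {a} h1 h2 h3 => by
      rw [mul_assoc, ← mul_assoc a, ← h3, mul_assoc, h1, ← mul_assoc, h2, z2]
    have c1 : Commute (π s) (π i) := si
    have c2 : Commute (π s) (π j) := sj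
    have c3 : Commute (π i) (π j) := ij
    rcases E (a := s * s) (b := 1) (by rw [map_mul, ss, map_one]) (by rw [m sx (n sx)]; group) with h | h
    · exact ⟨s, h, sx, si, sj⟩
    rw [one_mul] at h
    rcases fin s sx si sj with ⟨h1 | h1, h2⟩
    · exact ⟨s * i, k ei h h1, m ix sx, by rw [map_mul]; exact (c1.mul_left (Commute.refl _)).eq,
        by rw [map_mul]; exact (c2.mul_left c3).eq⟩
    rcases h2 with h2 | h2
    · exact ⟨s * j, k ej h h2, m jx sx, by rw [map_mul]; exact (c1.mul_left c3.symm).eq,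
        by rw [map_mul]; exact (c2.mul_left (Commute.refl _)).eq⟩
    · refine ⟨s * (i * j), k ek h ?_, m (m jx ix) sx, ?_, ?_⟩
      · rw [← mul_assoc, h1, mul_assoc, h2, mul_assoc i z, ← mul_assoc z, ← mul_assoc z, ← zc j, mul_assoc j z z, z2,
          mul_one, mul_assoc]
      · rw [map_mul, map_mul]; exact (c1.mul_left ((Commute.refl _).mul_left c3.symm)).eq
      · rw [map_mul, map_mul]; exact (c2.mul_left (c3.mul_left (Commute.refl _))).eq
  exact ⟨i, j, r, t, mul_inv_eq_iff_eq_mul.1 ix, mul_inv_eq_iff_eq_mul.1 jx, mul_inv_eq_iff_eq_mul.1 rx, ei, ej, ek,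
    E' (by rw [map_mul, map_mul, ri]) ((m ix rx).trans (m rx jx).symm),
    E' (by rw [map_mul, map_mul, map_mul, rj]) ((m jx rx).trans (m rx (m jx ix)).symm), t1, t2, fin t t2 t3 t4⟩

end Abs

open Cfsg Cfsg.Spor Cfsg.Agent.Spor Cfsg.Agent.Spor.Leech Cfsg.Agent.XSC.C1 Cfsg.Agent.Mon Cfsg.Agent.LES.Co

theorem not_isA {x g : Co0} (hx : x ^ 13 = 1) (ff : ∀ v : leechLattice, x • v = v → v = 0) (c : Commute x g) :
    ¬ IsA g := fun hg => by
  obtain ⟨g, hg, c⟩ : ∃ g, LC.IsA8 g ∧ Commute x g := by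
    rcases hg.2 with h | h
    · exact ⟨g, ⟨hg.1, h⟩, c⟩
    · exact ⟨negOne * g, ⟨(negOne_mul_sq g).trans hg.1, by rw [tr_negOne_mul, h, neg_neg]⟩,
        Commute.mul_right (negOne_comm x) c⟩
  have : Fact (Nat.Prime 13) := ⟨by norm_num⟩
  have hc := hg.ncard_neg
  generalize hS : {r : leechLattice | LC.nm r = 32 ∧ g • r = -r} = S at hc
  have := (Set.finite_of_ncard_ne_zero (s := S) (by omega)).fintype
  have h1 : ∀ r, MulAction.toPerm x r ∈ S ↔ r ∈ S := fun r => by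
    simp only [← hS, Set.mem_ofPred_eq, MulAction.toPerm_apply]
    rw [LC.nm_smul, ← mul_smul, ← c.eq, mul_smul, ← smul_neg, smul_left_cancel_iff]
  obtain ⟨a, ha⟩ := Equiv.Perm.exists_fixed_point_of_prime (p := 13) (n := 1)
    (σ := (MulAction.toPerm x).subtypePerm h1)
    (by rw [← Nat.card_eq_fintype_card]; change ¬ 13 ∣ Nat.card S; rw [Nat.card_coe_set_eq, hc]; norm_num)
    (by
      rw [pow_one, Equiv.Perm.subtypePerm_pow]
      refine Equiv.ext fun a => Subtype.ext ?_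
      change (MulAction.toPermHom Co0 leechLattice x ^ 13) a = a
      rw [← map_pow, hx, map_one]; rfl)
  have h2 := ff a (congrArg Subtype.val ha)
  have h3 := (hS.ge a.2).1
  rw [h2] at h3
  simp [LC.nm, sqNorm] at h3

end M13

open Cfsg Cfsg.Spor Cfsg.Agent.Spor Cfsg.Agent.Spor.Leech Cfsg.Agent.XSC.C1 Cfsg.Agent.Mon Cfsg.Agent.LES.Co M13 in
/-- The Monster, an element of class 13B and the group `2.(A₄ × 13:2)` in the centralizer of a 2B involution. -/
theorem mon13 : ∃ (G : Type) (_ : Group G) (_ : Finite G) (x z i j r t : G),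
    13 ^ 2 ∣ Nat.card G ∧ ¬ 13 ^ 4 ∣ Nat.card G ∧ ¬ 13 ^ 2 ∣ Nat.card (centralizer ({z} : Set G)) ∧
    orderOf z = 2 ∧ orderOf x = 13 ∧ Commute z x ∧
    (∀ s : G, s * s = 1 → Commute s x → Commute s z → s = 1 ∨ s = z) ∧
    (∀ s : G, s * s = 1 → s * x * s⁻¹ = x⁻¹ → IsConj z s) ∧
    Commute i x ∧ Commute j x ∧ Commute r x ∧ Commute r z ∧ i * i = z ∧ j * j = z ∧ i * j * (i * j) = z ∧
    (r * i = j * r ∨ r * i = j * z * r) ∧ (r * j = i * j * r ∨ r * j = i * j * z * r) ∧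
    t * t = 1 ∧ t * x * t⁻¹ = x⁻¹ ∧ Commute t z ∧ (t * i = i * t ∨ t * i = i * z * t) ∧
    (t * j = j * t ∨ t * j = j * z * t) := by
  have h := if1
  generalize zG = z, Qg = Q, piC = π, psi = ψ, lam = l at h
  have d := h.mon
  obtain ⟨x₀, i₀, j₀, r₀, s₀, hx₀, ⟨ν, hν⟩, ix, jx, rx, sx, ii, jj, kk, ss, si, sj, ri, rj⟩ := exists_elts
  have : Fact (Nat.Prime 13) := ⟨by norm_num⟩
  have : Fact (Nat.Prime 2) := ⟨Nat.prime_two⟩
  have ff : ∀ v : leechLattice, x₀ • v = v → v = 0 := fun v e => by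
    have := hν v
    rw [e, sub_self, map_zero] at this
    exact (smul_eq_zero.1 this.symm).resolve_left (by norm_num)
  have x1 : x₀ ≠ 1 := fun e => LES.Co.negOne_ne_one (co0_ext fun v => by rw [ff v (by rw [e, one_smul])]; simp)
  have ox : orderOf x₀ = 13 := orderOf_eq_prime hx₀ x1
  have k2 : Ker2 (QuotientGroup.mk' (center Co0)) := ker2_comp (MonoidHom.id _) Function.injective_id
  have hk : Nat.card π.ker = 2 ^ 25 := by
    rw [show π.ker = Q.subgroupOf _ from Subgroup.ext fun x => d.ker x,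
      Nat.card_congr (subgroupOfEquivOfLe (LES.LX_le_centralizer d.lx)).toEquiv, d.card]
  obtain ⟨x, ex, hx⟩ := lift13 d.surj hk (a := QuotientGroup.mk' _ x₀) (by rw [← map_pow, hx₀, map_one])
  have ox' : orderOf x = 13 := orderOf_eq_prime hx fun e => by
    have := k2.orderOf_map (by norm_num) (by norm_num) ox
    rw [← ex, e, map_one, orderOf_one] at this
    omega
  let z' : centralizer ({z} : Set MG) := ⟨z, mem_centralizer_singleton_iff.2 rfl⟩
  have CQ : ∀ q, π q = 1 → q * x = x * q → q = 1 ∨ q = z' := fun q h1 h2 => by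
    obtain ⟨v, hv⟩ := d.onto _ ((d.ker q).1 h1)
    obtain ⟨y, hy⟩ := d.congr_of_comm ex.symm hv (congrArg Subtype.val h2.symm)
    have h3 := hν v
    rw [hy, map_add] at h3
    refine (hv.trans d.z_sq ((d.triv v).2 ⟨ν y - (6 : ℤ) • v, ?_⟩)).imp Subtype.ext
      fun e => Subtype.ext (e.trans (one_mul z))
    rw [sub_add_sub_comm, h3]; module
  have NI : ∀ s, s * s = 1 → s * x = x * s → π s = 1 := fun s h1 h2 => by
    obtain ⟨g, hg⟩ := QuotientGroup.mk'_surjective (center Co0) (π s)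
    have c : Commute x₀ g := k2.commute (by rw [ox]; decide) (by
      rw [hg, ← ex]; exact (Commute.map h2 π).symm)
    rcases sq_cases (h.sq s g hg (congrArg Subtype.val h1)) with e | e | e | e
    · rw [← hg, e, map_one]
    · rw [← hg, e, k2.neg]
    · exact absurd e (not_isA hx₀ ff c)
    · exact absurd ⟨x₀, ox, c⟩ e.not_13
  have ne : ∀ {g : Co0}, g * g = negOne → QuotientGroup.mk' (center Co0) g ≠ 1 := fun e e' => by
    have := k2.orderOf_two (Or.inr (Or.inr e))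
    rw [e', orderOf_one] at this
    omega
  have sq : ∀ {g : Co0}, g * g = negOne →
      QuotientGroup.mk' (center Co0) g * QuotientGroup.mk' (center Co0) g = 1 := fun e => by
    rw [← map_mul, e, k2.neg]
  obtain ⟨i, j, r, t, a1, a2, a3, a4, a5, a6, a7, a8, a9, a10, a11, a12⟩ := exists_cfg (z := z') d.surj hk
    (fun g => Subtype.ext (LES.MonData.comm_z g)) (Subtype.ext d.z_sq) hx CQ NI
    (i := QuotientGroup.mk' _ i₀) (j := QuotientGroup.mk' _ j₀) (r := QuotientGroup.mk' _ r₀)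
    (s := QuotientGroup.mk' _ s₀) (by rw [ex, ← map_mul, ix, map_mul]) (by rw [ex, ← map_mul, jx, map_mul])
    (by rw [ex, ← map_mul, rx, map_mul]) (by rw [ex, ← map_mul, ← map_mul, sx]) (sq ii) (sq jj)
    (by rw [← map_mul]; exact sq kk) (sq ss) (by rw [← map_mul, si, map_mul]) (by rw [← map_mul, sj, map_mul])
    (by rw [← map_mul, ri, map_mul]) (by rw [← map_mul, rj, map_mul, map_mul]) (ne ii) (ne jj)
    (by rw [← map_mul]; exact ne kk)
  have ox'' : orderOf (x : MG) = 13 := (Subgroup.orderOf_coe x).trans ox'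
  refine ⟨MG, inferInstance, inferInstance, x, z, i, j, r, t, by rw [h.card_G]; norm_num,
    by rw [h.card_G]; norm_num, by rw [h.card_C]; norm_num,
    orderOf_eq_prime ((pow_two z).trans d.z_sq) d.lx.z_ne, ox'', (LES.MonData.comm_z x).symm,
    fun s h1 h2 h3 => ?_, fun s h1 h2 => ?_, congrArg Subtype.val a1, congrArg Subtype.val a2,
    congrArg Subtype.val a3, LES.MonData.comm_z r, congrArg Subtype.val a4, congrArg Subtype.val a5,
    congrArg Subtype.val a6, a7.imp (congrArg Subtype.val) (congrArg Subtype.val),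
    a8.imp (congrArg Subtype.val) (congrArg Subtype.val), congrArg Subtype.val a9, congrArg Subtype.val a10,
    LES.MonData.comm_z t, a11.imp (congrArg Subtype.val) (congrArg Subtype.val),
    a12.imp (congrArg Subtype.val) (congrArg Subtype.val)⟩
  · let s' : centralizer ({z} : Set MG) := ⟨s, mem_centralizer_singleton_iff.2 h3⟩
    exact (CQ s' (NI s' (Subtype.ext h1) (Subtype.ext h2)) (Subtype.ext h2)).imp (congrArg Subtype.val)
      (congrArg Subtype.val)
  · have e : s * ((x : MG)⁻¹ * s * (x : MG)⁻¹⁻¹) = (x : MG) ^ 2 := by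
      calc _ = (s * x * s⁻¹)⁻¹ * (s * s) * x := by group
        _ = _ := by rw [h1, h2, pow_two]; group
    have o2 : orderOf ((x : MG) ^ 2) = 13 := by rw [orderOf_pow' _ two_ne_zero, ox'']; norm_num
    have s1 : s ≠ 1 := fun e' => by
      rw [← e, e'] at o2
      simp at o2
    refine (h.two_classes (orderOf_eq_prime ((pow_two s).trans h1) s1)).resolve_left fun ha => ?_
    have := h.ord s ha _ (ha.trans (isConj_iff.2 ⟨(x : MG)⁻¹, rfl⟩))
    rw [e, o2] at this
    omega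

end Cfsg.Agent.RV
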